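import Cfsg.Agent.M24.Monster4

/-! Centralizers in the automorphism group of the lattice: the action on an invariant part of the lattice modulo two. -/

set_option autoImplicit false

namespace CA.M24

open Cfsg Subgroup Equiv CA.Fi
open scoped Pointwise symmDiff

noncomputable section

local notation "Λ" => leechLattice

theorem T4.act {v : Vec} (h : T4 v) (hv : v ∈ Λ) (g : Co0) : T4 (act g v) := by
  obtain ⟨w, h1, h2⟩ := h
  exact ⟨_, h1.act hv g, by rw [sqNorm_act, h2]⟩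

theorem T4.cong {v w : Vec} (h : T4 v) (e : Cong v w) : T4 w := by
  obtain ⟨u, h1, h2⟩ := h
  exact ⟨u, h1.trans e, h2⟩

theorem not_T4 {v w : Vec} (hw : w ∈ Λ) (e : Cong v w) (h : sqNorm w < 64) : ¬ T4 v := by
  rintro ⟨u, h1, h2⟩
  have := short_cong_norm hw h2.le h.le (h1.trans e)
  omega

theorem ext_e8 {g h : Co0} (H : ∀ p, act g (e8 p) = act h (e8 p)) : g = h :=
  (inv_mul_eq_one.1 (eq_one_of_e8 fun p => by rw [act_mul, ← H, act_inv_act]))

theorem FixC.inv {x h : Co0} (hc : h ∈ centralizer ({x} : Set Co0)) {v : Vec} (hv : v ∈ Λ) (H : FixC x v) :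
    FixC x (act h v) := by
  rw [FixC, ← act_mul, ← (mem_cent_iff.1 hc).eq, act_mul]
  exact Cong.act H hv h

theorem FixC.pow {x : Co0} {v : Vec} (hv : v ∈ Λ) (H : FixC x v) (n : ℕ) : FixC (x ^ n) v := by
  induction n with
  | zero => rw [FixC, pow_zero, act_one]; exact Cong.refl _
  | succ n ih => rw [FixC, pow_succ', act_mul]; exact (Cong.act ih hv x).trans H

theorem InK.fix {x h : Co0} (hk : InK x h) {v : Vec} (hv : v ∈ Λ) (H : FixC x v) : FixC h v := by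
  obtain ⟨n, rfl | rfl⟩ := hk
  · exact H.pow hv n
  · rw [FixC, act_mul, act_ng hv]
    exact ((cong_neg hv).act hv _).trans (H.pow hv n)

theorem fixC_e8 {π : Perm Pt} (hπ : π ∈ M24) : FixC (pC π) (e8 none) := mem_Mon.1 (pC_mem_Mon hπ)

theorem inK_of_card {x : Co0} {p : ℕ} (hp : Odd p) (hx : orderOf x = p)
    {K : Subgroup (centralizer ({x} : Set Co0))} (hK : ∀ h : centralizer ({x} : Set Co0), InK x h → h ∈ K)
    (hc : Nat.card K ≤ 2 * p) {h : centralizer ({x} : Set Co0)} (hh : h ∈ K) : InK x h := by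
  have c1 : Commute x ng := ng_comm x
  have h1 : orderOf (x * ng) = 2 * p := by
    rw [c1.orderOf_mul_eq_mul_orderOf_of_coprime (by rw [hx, orderOf_ng]; exact Nat.coprime_two_right.2 hp), hx,
      orderOf_ng, mul_comm]
  have key : ∀ n : ℕ, InK x ((x * ng) ^ n) := fun n => ⟨n, by
    rw [c1.mul_pow]
    rcases Nat.even_or_odd n with ⟨k, rfl⟩ | e
    · exact Or.inl (by rw [← two_mul, pow_mul ng, pow_two ng, ng_mul_ng, one_pow, mul_one])
    · exact Or.inr (by rw [ng_pow_odd e])⟩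
  let y : centralizer ({x} : Set Co0) := ⟨x * ng, mem_cent_iff.2 ((Commute.refl x).mul_left c1.symm)⟩
  have h2 : zpowers y = K := eq_of_le_of_card_ge (zpowers_le.2 (hK y (by simpa using key 1)))
    (by rw [Nat.card_zpowers, Subgroup.orderOf_mk, h1]; exact hc)
  obtain ⟨n, rfl⟩ := (mem_powers_iff_mem_zpowers.2 (h2 ▸ hh) :)
  exact key n

namespace Crd

variable {H : Subgroup Co0} {P : Vec → Prop} {N : ℕ} {crd : Vec → ℕ} {cmb : ℕ → Vec}

/-- the action on the coordinates -/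
@[reducible] def actM (C : Crd H P N crd cmb) : MulAction H (Fin N) where
  smul h a := ⟨crd (act h (cmb a)), C.lt _⟩
  one_smul a := Fin.ext (by
    show crd (act 1 (cmb a)) = a
    rw [act_one, C.crd_cmb _ a.2])
  mul_smul h k a := Fin.ext (by
    show crd (act (h * k : Co0) (cmb a)) = crd (act h (cmb (crd (act k (cmb a)))))
    rw [act_mul]
    exact C.crd_cong _ _ (act_mem _ (C.mem _))
      ((C.cong _ (act_mem _ (C.mem _)) (C.inv _ k.2 _ (C.mem _) (C.fix _))).act (C.mem _) _))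

def rho (C : Crd H P N crd cmb) : H →* Perm (Fin N) := @MulAction.toPermHom _ _ _ C.actM

def pt (C : Crd H P N crd cmb) (v : Vec) : Fin N := ⟨crd v, C.lt v⟩

variable (C : Crd H P N crd cmb)
include C

theorem rho_val (h : H) (a : Fin N) : (C.rho h a : ℕ) = crd (act h (cmb a)) := rfl

theorem pt_cmb (a : Fin N) : C.pt (cmb a) = a := Fin.ext (C.crd_cmb _ a.2)

theorem rho_pt (h : H) {v : Vec} (hv : v ∈ Λ) (hP : P v) : C.rho h (C.pt v) = C.pt (act h v) :=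
  Fin.ext (C.crd_cong _ _ (act_mem _ hv) ((C.cong v hv hP).act (C.mem _) _).symm)

theorem pt_eq_iff {v w : Vec} (hv : v ∈ Λ) (hP : P v) (hw : w ∈ Λ) (hP' : P w) : C.pt v = C.pt w ↔ Cong v w :=
  ⟨fun e => (C.cong v hv hP).trans ((show crd v = crd w from congrArg Fin.val e) ▸ (C.cong w hw hP').symm),
    fun e => Fin.ext (C.crd_cong _ _ hw e)⟩

theorem rho_fix_iff (h : H) {v : Vec} (hv : v ∈ Λ) (hP : P v) :
    C.rho h (C.pt v) = C.pt v ↔ Cong (act h v) v := by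
  rw [C.rho_pt h hv hP, C.pt_eq_iff (act_mem _ hv) (C.inv _ h.2 _ hv hP) hv hP]

theorem cong_rho (h : H) (a : Fin N) : Cong (act h (cmb a)) (cmb (C.rho h a)) :=
  C.cong _ (act_mem _ (C.mem _)) (C.inv _ h.2 _ (C.mem _) (C.fix _))

theorem rho_eq_one {h : H} (e : ∀ v ∈ Λ, P v → Cong (act h v) v) : C.rho h = 1 := by
  ext1 a
  rw [← C.pt_cmb a]
  exact (C.rho_fix_iff h (C.mem _) (C.fix _)).2 (e _ (C.mem _) (C.fix _))

theorem T4_rho (h : H) (a : Fin N) : T4 (cmb (C.rho h a)) ↔ T4 (cmb a) := by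
  have key : ∀ (h : H) (a : Fin N), T4 (cmb a) → T4 (cmb (C.rho h a)) := fun h a e =>
    (e.act (C.mem _) _).cong (C.cong_rho h a)
  refine ⟨fun e => ?_, key h a⟩
  have := key h⁻¹ _ e
  rwa [← Perm.mul_apply, ← map_mul, inv_mul_cancel, map_one, Perm.one_apply] at this

/-- the orbit of a class -/
def orbE (v : Vec) : Set (Fin N) := {a | ∃ h : H, C.rho h (C.pt v) = a}

theorem orbE_rho {v : Vec} {a : Fin N} (h : H) : C.rho h a ∈ C.orbE v ↔ a ∈ C.orbE v := by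
  have key : ∀ (h : H) (a : Fin N), a ∈ C.orbE v → C.rho h a ∈ C.orbE v := by
    rintro h _ ⟨k, rfl⟩
    exact ⟨h * k, by rw [map_mul]; rfl⟩
  refine ⟨fun e => ?_, key h a⟩
  have := key h⁻¹ _ e
  rwa [← Perm.mul_apply, ← map_mul, inv_mul_cancel, map_one, Perm.one_apply] at this

theorem T4_of_orb {p : Pt} (he : P (e8 p)) {a : Fin N} (ha : a ∈ C.orbE (e8 p)) : T4 (cmb a) := by
  obtain ⟨h, rfl⟩ := ha
  exact (C.T4_rho h _).2 ⟨_, C.cong _ (e8_mem _) he, sqNorm_e8 _⟩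

theorem fix_e8_iff {p : Pt} (he : P (e8 p)) (h : H) : C.rho h (C.pt (e8 p)) = C.pt (e8 p) ↔ (h : Co0) ∈ Mon := by
  rw [C.rho_fix_iff h (e8_mem _) he, mem_Mon]
  exact ⟨fun e => (((cong_e8 none p).act (e8_mem _) _).trans e).trans (cong_e8 _ _),
    fun e => (((cong_e8 p none).act (e8_mem _) _).trans e).trans (cong_e8 _ _)⟩

theorem card_H {p : Pt} (he : P (e8 p)) : Nat.card H = (C.orbE (e8 p)).ncard * Nat.card ↥(H ⊓ Mon) := by
  letI := C.actM
  have h1 : MulAction.stabilizer H (C.pt (e8 p)) = Mon.subgroupOf H := by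
    ext h
    exact C.fix_e8_iff he h
  rw [← (MulAction.stabilizer H (C.pt (e8 p))).index_mul_card, MulAction.index_stabilizer, h1, ← inf_subgroupOf_left,
    Nat.card_congr (subgroupOfEquivOfLe (inf_le_left : H ⊓ Mon ≤ H)).toEquiv]
  rfl

theorem eq_top {p : Pt} (he : P (e8 p)) (S : Subgroup H) (h1 : ∀ h : H, (h : Co0) ∈ Mon → h ∈ S)
    (h2 : ∀ a ∈ C.orbE (e8 p), ∃ s ∈ S, C.rho s a = C.pt (e8 p)) (h : H) : h ∈ S := by
  obtain ⟨s, hs, e⟩ := h2 _ ⟨h, rfl⟩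
  rw [← Perm.mul_apply, ← map_mul, C.fix_e8_iff he] at e
  exact (mul_mem_cancel_left hs).1 (h1 _ e)

theorem O2_eq_bot {v : Vec} {Y : Type*} [Group Y] (f : H →* Y) (hf : Function.Surjective f)
    (h1 : ∀ h, f h = 1 → C.rho h = 1) (h2 : ∀ h, (∀ a ∈ C.orbE v, C.rho h a = a) → f h = 1)
    (hodd : (C.orbE v).ncard % 2 = 1) (T : Subgroup Y) (hn : T.Normal) (hT : IsPGroup 2 T) : T = ⊥ := by
  obtain ⟨_, ⟨k, rfl⟩, hk⟩ := exists_fixed_of_odd ((T.comap f).map C.rho) (by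
    rintro ⟨_, h, hh, rfl⟩
    obtain ⟨n, e⟩ := hT ⟨f h, hh⟩
    exact ⟨n, Subtype.ext (by
      show C.rho h ^ _ = 1
      rw [← map_pow]
      exact h1 _ ((map_pow _ _ _).trans (congrArg Subtype.val e)))⟩) (C.orbE v) hodd (by
    rintro _ ⟨h, -, rfl⟩ a ha
    exact (C.orbE_rho h).2 ha)
  rw [eq_bot_iff]
  intro y hy
  obtain ⟨h, rfl⟩ := hf y
  refine h2 h ?_
  rintro _ ⟨k', rfl⟩
  have := hk _ (mem_map_of_mem C.rho ((hn.comap f).conj_mem h hy (k * k'⁻¹)))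
  rw [Perm.smul_def, ← Perm.mul_apply, ← map_mul, show k * k'⁻¹ * h * (k * k'⁻¹)⁻¹ * k = k * (k'⁻¹ * (h * k')) by
    group, map_mul, Perm.mul_apply, (C.rho k).apply_eq_iff_eq, map_mul, map_inv, Perm.mul_apply,
    Perm.inv_eq_iff_eq, map_mul] at this
  exact this

theorem exists_hom {Y ι : Type*} [Group Y] (α : Y →* Perm ι) (hα : Function.Injective α)
    (mem : Fin N → ι → Bool) (hsep : ∀ i j, (∀ a, mem a i = mem a j) → i = j)
    (hall : ∀ S : Subgroup H, (∀ h y, (∀ a i, mem (C.rho h a) (α y i) = mem a i) → h ∈ S) → ∀ h, h ∈ S) :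
    ∃ f : H →* Y, ∀ h y, f h = y ↔ ∀ a i, mem (C.rho h a) (α y i) = mem a i := by
  have hmul : ∀ h y h' y', (∀ a i, mem (C.rho h a) (α y i) = mem a i) →
      (∀ a i, mem (C.rho h' a) (α y' i) = mem a i) → ∀ a i, mem (C.rho (h * h') a) (α (y * y') i) = mem a i :=
    fun h y h' y' e e' a i => by rw [map_mul, map_mul, Perm.mul_apply, Perm.mul_apply, e, e']
  have hinv : ∀ h y, (∀ a i, mem (C.rho h a) (α y i) = mem a i) →
      ∀ a i, mem (C.rho h⁻¹ a) (α y⁻¹ i) = mem a i := fun h y e a i => by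
    rw [← e, ← Perm.mul_apply, ← Perm.mul_apply, ← map_mul, ← map_mul, mul_inv_cancel, mul_inv_cancel, map_one,
      map_one]
    rfl
  refine exists_hom_of_rel _ hmul hinv (hall
    { carrier := {h | ∃ y, ∀ a i, mem (C.rho h a) (α y i) = mem a i}
      mul_mem' := fun ⟨_, e⟩ ⟨_, e'⟩ => ⟨_, hmul _ _ _ _ e e'⟩
      one_mem' := ⟨1, fun a i => by rw [map_one, map_one]; rfl⟩
      inv_mem' := fun ⟨_, e⟩ => ⟨_, hinv _ _ e⟩ } fun h y e => ⟨y, e⟩) fun y e => hα ?_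
  rw [map_one]
  ext1 i
  exact hsep _ _ fun a => by simpa using e a i

end Crd

/-! ### The monomial part of a centralizer -/

/-- the centralizer in the group of the code -/
abbrev CM (π : Perm Pt) : Subgroup (Perm Pt) := M24 ⊓ centralizer {π}

theorem mono_comm {π σ : Perm Pt} (hπ : π ∈ M24) (hσ : σ ∈ M24) {c : Finset Pt} (hc : c ∈ Cs) {π' : Perm Pt}
    (hπ' : π' ∈ M24) (h : eps c * pC σ * pC π = pC π' * (eps c * pC σ)) : π' • c = c ∧ σ * π = π' * σ := by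
  rw [mul_assoc, ← pC_mul hσ hπ, ← mul_assoc, pC_mul_eps hπ' hc, mul_assoc, ← pC_mul hπ' hσ] at h
  exact (mono_inj (mul_mem hσ hπ) (mul_mem hπ' hσ) hc (smul_mem_Cs hπ' hc) h).imp Eq.symm id

theorem exists_of_cent_mon {π : Perm Pt} (hπ : π ∈ M24) {h : Co0} (h1 : h ∈ centralizer ({pC π} : Set Co0))
    (h2 : h ∈ Mon) : ∃ c ∈ Cs, π • c = c ∧ ∃ σ ∈ CM π, h = eps c * pC σ := by
  obtain ⟨c, hc, σ, hσ, rfl⟩ := mem_Mon_iff.1 h2
  obtain ⟨e1, e2⟩ := mono_comm hπ hσ hc hπ (mem_cent_iff.1 h1).eq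
  exact ⟨c, hc, e1, σ, ⟨hσ, mem_cent_iff.2 e2⟩, rfl⟩

theorem card_cent_mon {π : Perm Pt} (hπ : π ∈ M24) {m : ℕ} (F : ℕ → Finset Pt)
    (hF : ∀ c ∈ Cs, π • c = c → ∃ j < m, c = F j) :
    Nat.card ↥(centralizer ({pC π} : Set Co0) ⊓ Mon) ≤ m * Nat.card (CM π) := by
  have key : ∀ h : ↥(centralizer ({pC π} : Set Co0) ⊓ Mon), ∃ a : Fin m × CM π, h = eps (F a.1) * pC a.2 := by
    intro h
    obtain ⟨c, hc, e1, σ, hσ, e⟩ := exists_of_cent_mon hπ h.2.1 h.2.2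
    obtain ⟨j, hj, rfl⟩ := hF c hc e1
    exact ⟨(⟨j, hj⟩, ⟨σ, hσ⟩), e⟩
  choose g hg using key
  have := Nat.card_le_card_of_injective g fun a b e => Subtype.ext (by rw [hg a, hg b, e])
  rwa [Nat.card_prod, Nat.card_eq_fintype_card (α := Fin m), Fintype.card_fin] at this

theorem comm_apply {π σ : Perm Pt} (h : σ ∈ CM π) (x : Pt) : σ (π x) = π (σ x) :=
  congrFun (congrArg DFunLike.coe (mem_cent_iff.1 h.2).eq) x

theorem orb_CM {π : Perm Pt} {H : Subgroup (Perm Pt)} (hH : H ≤ CM π) {x : Pt} (hx : π x ≠ x) (s : Finset Pt)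
    (hs : ∀ g ∈ H, g x ∉ s) : (orb H x).ncard ≤ (fixS π ∪ s)ᶜ.card := by
  rw [← Set.ncard_coe_finset]
  refine Set.ncard_le_ncard ?_
  rintro _ ⟨g, hg, rfl⟩
  rw [Finset.mem_coe, Finset.mem_compl, Finset.mem_union, mem_fixS, not_or]
  exact ⟨fun e => hx (g.injective ((comm_apply (hH hg) x).trans e)), hs g hg⟩

theorem card_CM5 {π : Perm Pt} (h1 : π (pt 23) = pt 0) (h2 : π (pt 0) = pt 1) (h3 : π (pt 1) = pt 2)
    (h4 : π (pt 2) = pt 3) :
    Nat.card (CM π) ≤ (fixS π ∪ ∅)ᶜ.card * cntL (fun c => commB c (code π)) RL := by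
  rw [card_eq_orb_mul (CM π) (pt 23)]
  refine Nat.mul_le_mul (orb_CM le_rfl (by rw [h1]; decide) _ (by simp)) (le_of_eq (card_fix5 _ _ fun g => ?_))
  rw [commB_code]
  constructor
  · rintro ⟨hg, e⟩
    have e0 : g (pt 23) = pt 23 := e
    have e1 : g (pt 0) = pt 0 := by rw [← h1, comm_apply hg, e0]
    have e2 : g (pt 1) = pt 1 := by rw [← h2, comm_apply hg, e1]
    have e3 : g (pt 2) = pt 2 := by rw [← h3, comm_apply hg, e2]
    have e4 : g (pt 3) = pt 3 := by rw [← h4, comm_apply hg, e3]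
    exact ⟨hg.1, e0, e1, e2, e3, e4, mem_cent_iff.1 hg.2⟩
  · rintro ⟨hg, e0, -, -, -, -, e⟩
    exact ⟨⟨hg, mem_cent_iff.2 e⟩, e0⟩

theorem card_CM3 {π : Perm Pt} (h1 : π (pt 23) = pt 0) (h2 : π (pt 0) = pt 1) (h4 : π (pt 2) = pt 3) :
    Nat.card (CM π) ≤ (fixS π ∪ ∅)ᶜ.card * ((fixS π ∪ {pt 23, pt 0, pt 1})ᶜ.card *
      cntL (fun c => commB c (code π)) RL) := by
  have key : ∀ g ∈ CM π ⊓ MulAction.stabilizer (Perm Pt) (pt 23), g (pt 23) = pt 23 ∧ g (pt 0) = pt 0 ∧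
      g (pt 1) = pt 1 := by
    rintro g ⟨hg, e⟩
    have e0 : g (pt 23) = pt 23 := e
    have e1 : g (pt 0) = pt 0 := by rw [← h1, comm_apply hg, e0]
    exact ⟨e0, e1, by rw [← h2, comm_apply hg, e1]⟩
  rw [card_eq_orb_mul (CM π) (pt 23), card_eq_orb_mul (CM π ⊓ _) (pt 2)]
  refine Nat.mul_le_mul (orb_CM le_rfl (by rw [h1]; decide) _ (by simp)) (Nat.mul_le_mul
    (orb_CM inf_le_left (by rw [h4]; decide) _ fun g hg => ?_) (le_of_eq (card_fix5 _ _ fun g => ?_)))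
  · obtain ⟨e0, e1, e2⟩ := key g hg
    rw [← e0, ← e1, ← e2]
    simp only [Finset.mem_insert, Finset.mem_singleton, g.apply_eq_iff_eq]
    decide
  rw [commB_code]
  constructor
  · rintro ⟨hg, e⟩
    obtain ⟨e0, e1, e2⟩ := key g hg
    have e3 : g (pt 2) = pt 2 := e
    exact ⟨hg.1.1, e0, e1, e2, e3, by rw [← h4, comm_apply hg.1, e3], mem_cent_iff.1 hg.1.2⟩
  · rintro ⟨hg, e0, -, -, e3, -, e⟩
    exact ⟨⟨⟨hg, mem_cent_iff.2 e⟩, e0⟩, e3⟩

theorem card_moved {c : ℕ} (h : code (perm c) = c) (s : Finset Pt) :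
    (fixS (perm c) ∪ s)ᶜ.card = pcnt (Nat.xor full (Nat.lor (pfix c) (mask s))) := by
  rw [← pcnt_mask, mask_compl, mask_union, ← pfix_code, h]

theorem chainLB_le_of_emb {ι : Type*} (ix : ι → ℕ) {n : ℕ} (hn : n ≤ 24) (h1 : ∀ i, ix i < n)
    (h2 : Function.Injective ix) (h3 : ∀ j < n, ∃ i, ix i = j) (I : Subgroup (Perm ι)) {gens : List ℕ}
    (h : ∀ c ∈ gens, valid c = true ∧ (∀ j < 24, n ≤ j → dig c j = j) ∧ ∃ σ ∈ I, ∀ i, ix (σ i) = dig c (ix i))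
    (cert : List (ℕ × ℕ × List (List ℕ))) : chainLB cert gens ≤ Nat.card I := by
  let e : ι ↪ Pt := ⟨fun i => pt (ix i), fun i j e => h2 (pt_inj ((h1 i).trans_le hn) ((h1 j).trans_le hn) e)⟩
  rw [← card_map_of_injective (K := I) (Perm.viaEmbeddingHom_injective e)]
  refine chainLB_le cert fun c hc => ?_
  obtain ⟨hv, hf, σ, hσ, e1⟩ := h c hc
  obtain ⟨g, rfl⟩ := exists_of_valid hv
  refine ⟨g, ⟨σ, hσ, ?_⟩, rfl⟩
  ext1 p
  rw [Perm.viaEmbeddingHom_apply]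
  by_cases hp : idx p < n
  · obtain ⟨i, hi⟩ := h3 _ hp
    obtain rfl : p = e i := by rw [← pt_idx p, ← hi]; rfl
    rw [Perm.viaEmbedding_apply]
    show pt (ix (σ i)) = g (pt (ix i))
    rw [e1, apply_pt g ((h1 i).trans_le hn)]
  · rw [Perm.viaEmbedding_apply_of_notMem, apply_eq, hf _ (idx_lt p) (not_lt.1 hp), pt_idx]
    rintro ⟨i, rfl⟩
    exact hp (by show idx (pt (ix i)) < n; rw [idx_pt ((h1 i).trans_le hn)]; exact h1 i)

end

end CA.M24

theorem CA.M24.realizeEqnsCent1 : True := by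
  have := @CA.M24.Crd.rho.eq_1
  have := @CA.M24.Crd.rho.eq_def
  have := @CA.M24.Crd.rho.congr_simp
  have := @CA.M24.Crd.pt.eq_1
  have := @CA.M24.Crd.pt.eq_def
  have := @CA.M24.Crd.pt.congr_simp
  have := @CA.M24.CM.eq_1
  have := @CA.M24.CM.eq_def
  have := @CA.M24.CM.congr_simp
  have := @CA.M24.Crd.actM.eq_1
  have := @CA.M24.Crd.actM.eq_def
  have := @CA.M24.Crd.actM.congr_simp
  have := @CA.M24.Crd.orbE.eq_1
  have := @CA.M24.Crd.orbE.eq_def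
  have := @CA.M24.Crd.orbE.congr_simp
  trivial
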