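import Cfsg.Agent.M24.Cent1

/-! Centralizers in the automorphism group of the lattice: certificates. -/

set_option autoImplicit false
set_option maxRecDepth 100000

namespace CA.M24

open Cfsg Subgroup Equiv CA.Fi
open scoped Pointwise symmDiff

noncomputable section

local notation "Λ" => leechLattice

/-- a packed vector -/
def vN (P : ℕ) : Vec := vecF (vecN P)

abbrev Word : Type := List (ℕ × ℕ × Bool)

def wordC : Word → Co0
  | [] => 1
  | r :: l => wordC l * stepC r.1 r.2.1 r.2.2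

def pk (f : ℕ → ℤ) : ℕ :=
  Nat.rec (motive := fun _ => ℕ) (nat_lit 0)
    (fun i ih => Nat.add (Nat.shiftLeft (Int.toNat (Int.add (f i) 128)) (Nat.mul (nat_lit 8) i)) ih) (nat_lit 24)

/-- pack a vector and go on -/
def pkGo (f : ℕ → ℤ) (k : ℕ → Bool) : Bool := force (pk f) fun P => band (eqF (vecN P) f) (k P)

theorem pkGo_spec {f : ℕ → ℤ} {k : ℕ → Bool} (h : pkGo f k = true) : ∃ P, vN P = vecF f ∧ k P = true := by
  rw [pkGo, force_eq, band_eq_true] at h
  exact ⟨_, vecF_eq_of_eqF h.1, h.2⟩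

def wordGo (l : Word) (k : ℕ → Bool) : ℕ → Bool :=
  List.rec (motive := fun _ => ℕ → Bool) k (fun r _ ih P => pkGo (stepF r.1 r.2.1 r.2.2 (vecN P)) ih) l

def wordOk (l : Word) : Bool := allL (fun r => band (chk r.1) (isC r.2.1)) l

theorem wordGo_spec {l : Word} {k : ℕ → Bool} {P : ℕ} (hl : wordOk l = true) (h : wordGo l k P = true)
    (hP : vN P ∈ Λ) : ∃ P', act (wordC l) (vN P) = vN P' ∧ k P' = true := by
  induction l generalizing P with
  | nil => exact ⟨P, act_one _, h⟩
  | cons r l ih =>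
    rw [wordOk, allL_eq_true, List.forall_mem_cons, band_eq_true, ← allL_eq_true] at hl
    obtain ⟨P1, e, h1⟩ := pkGo_spec (k := wordGo l k) h
    have e1 := (act_stepC r.2.2 hl.1.1 hl.1.2 hP).trans e.symm
    obtain ⟨P', e2, h2⟩ := ih hl.2 h1 (e1 ▸ act_mem _ hP)
    exact ⟨P', by rw [wordC, act_mul, ← e2, ← e1]; rfl, h2⟩

theorem wordC_eps (s : ℕ) : wordC [(pone, s, false)] = eps (unmask s) := by
  show 1 * (1 * eps (unmask s) * pC (perm pone)⁻¹) = _
  rw [← code_one, perm_code, inv_one, pC_one, one_mul, one_mul, mul_one]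

theorem wordC_perm (c : ℕ) : wordC [(c, 0, false)] = pC (perm c)⁻¹ := by
  show 1 * (1 * eps (unmask 0) * pC (perm c)⁻¹) = _
  rw [unmask_zero, eps_empty, one_mul, one_mul, one_mul]

def e8N (p : ℕ) : ℕ :=
  Nat.add (nat_lit 3150858910311745638317572730080710985337652928985868304512) (Nat.shiftLeft (nat_lit 8) (Nat.mul (nat_lit 8) p))

theorem vN_e8N : ∀ p : Pt, vN (e8N (idx p)) = e8 p := by decide +kernel

/-- the word conjugates the first permutation to the second -/
def comChk (l : Word) (c c' : ℕ) : Bool :=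
  allR (fun p => wordGo l (fun A => wordGo l (fun B => eqF (vecN B) (prmF c' (vecN A))) (e8N p))
    (e8N (dig c p))) 24

theorem comChk_spec {l : Word} {π π' : Perm Pt} (hπ : π ∈ M24) (hπ' : π' ∈ M24) (hl : wordOk l = true)
    (h : comChk l (code π) (code π') = true) : wordC l * pC π = pC π' * wordC l := by
  refine ext_e8 fun p => ?_
  have h1 := allR_eq_true.1 h _ (idx_lt p)
  rw [dig_code_idx] at h1
  obtain ⟨A, e1, h2⟩ := wordGo_spec hl h1 (vN_e8N _ ▸ e8_mem _)
  obtain ⟨B, e2, h3⟩ := wordGo_spec hl h2 (vN_e8N _ ▸ e8_mem _)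
  rw [vN_e8N] at e1 e2
  have e3 : vN B = prm π'⁻¹ (vN A) := (vecF_eq_of_eqF h3).trans (prm_vecF _ _).symm
  rw [act_mul, act_mul, act_pC hπ (e8_mem p), prm_e8, e1, act_pC hπ' (act_mem _ (e8_mem p)), e2, e3, prm_prm,
    mul_inv_cancel, prm_one]

def dotF (f g : ℕ → ℤ) : ℤ := sumZ fun i => Int.mul (f i) (g i)

theorem dot_vecF (f g : ℕ → ℤ) : dotInt (vecF f) (vecF g) = dotF f g := by
  rw [dotF, sumZ_eq]; rfl

theorem sqNorm_vecF (f : ℕ → ℤ) : sqNorm (vecF f) = dotF f f := by rw [sqNorm_eq_dot, dot_vecF]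

def genN : List ℕ := [nat_lit 3077395280933139264181994557296846752159004038673819861377, nat_lit 3200090329562107094287878671688741354156284176117635514498, nat_lit 3151050472265771856649748817658010422400884645525549253248, nat_lit 3200090332485110194047196022696412768808193396523044864128, nat_lit 3151051220554654945103778288284257309494321121174625484928, nat_lit 3199898770553875512893629988491002584908032324317711728768, nat_lit 3199899518831340445584119141568837537025866896919591157888, nat_lit 3200091077862363214349342329494585279191517483000725012608, nat_lit 3150858913246211670238664011047066529639896696665514475648, nat_lit 3150859661535049810116940657467730326712057454975288115328, nat_lit 3151051223477613618955762141157662377185211582277339873408, nat_lit 3199899518831295670552373366229147466590906478467263529088, nat_lit 3200091077850900806222423842533927247841650359204852039808, nat_lit 3248938624927162525252506939818330773089252232805618843780,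 nat_lit 3248938624927162525252506939818330773089252232805618844800, nat_lit 3248938624927162525252506939818330773089252232805619105920, nat_lit 3248938624927162525252506939818330773089252232805685952640, nat_lit 3248938624927162525252506939818330773089252232822798712960, nat_lit 3248938624927162525252506939818330773089252237203665354880, nat_lit 3248938624927162525252506939818330773089253358705525686400, nat_lit 3248938624927162525252506939818330773089540463181770555520, nat_lit 3248938624927162525252506939818330773163039209100457050240, nat_lit 3248938624927162525252506939818330791978718164284199698560, nat_lit 3248938624927162525252506939818335608792530691322317668480, nat_lit 3248938624927162525252506939819568713128537613080517968000, nat_lit 3248938624927162525252506940135243423146309583179794645120, nat_lit 3248938624927162525252507020947969187695933928594623987840, nat_lit 3248938624927162525252527709005764912399766354790935724160, nat_lit 3248938624927162525257823851801470436580867461046740222080,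 nat_lit 3248938624927162526613636407502084626942750662532691689600, nat_lit 3248938624927162873701650666859317359584850242936267374720, nat_lit 3248938624927251728233301062310896915962342826251642765440, nat_lit 3248938624949998488335802297915263348600444154987742789760, nat_lit 3248938630773169074576118612633070103954384311429349015680, nat_lit 3248940121504839152097095180391599474563064360480542851200, nat_lit 3249321748812378997467096526575118350385156917586164744320, nat_lit 3347018339542579412187441149555950560840851536625369383040]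

theorem leech_indN (P : Vec → Prop) (h0 : P 0) (hadd : ∀ x ∈ Λ, ∀ y ∈ Λ, P x → P y → P (x + y))
    (hneg : ∀ x ∈ Λ, P x → P (-x)) (h : ∀ g ∈ genN, P (vN g)) {x : Vec} (hx : x ∈ Λ) : P x := by
  have e1 : ∃ g ∈ genN, vN g = fun i => 1 - 4 * ind {none} i := by decide +kernel
  have e2 : ∀ a ∈ basisL, ∃ g ∈ genN, vN g = vecF fun i => 2 * bz a i := by decide +kernel
  have e3 : ∀ p : Pt, ∃ g ∈ genN, vN g = fun i => 4 * (ind {p} i + ind {none} i) := by decide +kernel
  refine leech_induction P h0 hadd hneg ?_ (fun a ha => ?_) (fun p => ?_) hx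
  · obtain ⟨g, hg, e⟩ := e1
    exact e ▸ h g hg
  · obtain ⟨g, hg, e⟩ := e2 a ha
    have : (fun i => 2 * ind (unmask a) i) = vN g := by
      rw [e]
      funext i
      rw [ind_unmask]
      rfl
    exact this ▸ h g hg
  · obtain ⟨g, hg, e⟩ := e3 p
    exact e ▸ h g hg

theorem genN_mem : ∀ g ∈ genN, vN g ∈ Λ := fun g hg =>
  mem_of_lchk (allL_eq_true.1 (show allL (fun g => lchk (vecN g)) genN = true by decide +kernel) g hg)

/-! ### Coordinates -/

def crdV : List ℕ → Vec → ℕ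
  | [], _ => 0
  | u :: l, v => Nat.bit (bnot (zeq (dotInt v (vN u) % 16) 0)) (crdV l v)

def crdF (us : List ℕ) (f : ℕ → ℤ) : ℕ :=
  List.rec (motive := fun _ => ℕ) (nat_lit 0) (fun u _ ih =>
    Nat.add (Nat.mul (nat_lit 2) ih) (bif' (zeq (dotF f (vecN u) % 16) 0) (nat_lit 0) (nat_lit 1))) us

theorem crdV_vecF (us : List ℕ) (f : ℕ → ℤ) : crdV us (vecF f) = crdF us f := by
  induction us with
  | nil => rfl
  | cons u l ih =>
    rw [crdV, ih, vN, dot_vecF, Nat.bit_val]
    show _ = 2 * crdF l f + bif' (zeq (dotF f (vecN u) % 16) 0) 0 1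
    cases zeq (dotF f (vecN u) % 16) 0 <;> rfl

theorem crdV_lt (us : List ℕ) (v : Vec) : crdV us v < 2 ^ us.length := by
  induction us with
  | nil => exact Nat.one_pos
  | cons u l ih =>
    rw [crdV, Nat.bit_val, List.length_cons, pow_succ]
    have := Bool.toNat_le (bnot (zeq (dotInt v (vN u) % 16) 0))
    omega

theorem crdV_zero (us : List ℕ) : crdV us 0 = 0 := by
  induction us with
  | nil => rfl
  | cons u l ih =>
    rw [crdV, ih, show dotInt 0 (vN u) = 0 by simp [dotInt]]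
    rfl

theorem crdV_add {us : List ℕ} (hu : ∀ u ∈ us, vN u ∈ Λ) {v w : Vec} (hv : v ∈ Λ) (hw : w ∈ Λ) :
    crdV us (v + w) = crdV us v ^^^ crdV us w := by
  induction us with
  | nil => exact (Nat.xor_self 0).symm
  | cons u l ih =>
    rw [List.forall_mem_cons] at hu
    rw [crdV, crdV, crdV, Nat.xor_bit, ih hu.2, dot_add_left]
    congr 1
    obtain ⟨a, ha⟩ := eight_dvd_dot hv hu.1
    obtain ⟨b, hb⟩ := eight_dvd_dot hw hu.1
    rw [ha, hb]
    have key : ∀ n : ℤ, (n % 2 = 0 ∧ zeq (8 * n % 16) 0 = true) ∨ (n % 2 = 1 ∧ zeq (8 * n % 16) 0 = false) := by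
      intro n
      rcases Int.emod_two_eq_zero_or_one n with h | h
      · exact Or.inl ⟨h, zeq_eq_true.2 (by omega)⟩
      · exact Or.inr ⟨h, Bool.eq_false_iff.2 fun e => by have := zeq_eq_true.1 e; omega⟩
    rw [← mul_add]
    rcases key a with ⟨h1, e1⟩ | ⟨h1, e1⟩ <;> rcases key b with ⟨h2, e2⟩ | ⟨h2, e2⟩ <;>
      rcases key (a + b) with ⟨h3, e3⟩ | ⟨h3, e3⟩ <;> rw [e1, e2, e3] <;> first | rfl | omega

theorem crdV_cong {us : List ℕ} (hu : ∀ u ∈ us, vN u ∈ Λ) {v w : Vec} (h : Cong v w) :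
    crdV us v = crdV us w := by
  induction us with
  | nil => rfl
  | cons u l ih =>
    rw [List.forall_mem_cons] at hu
    have := h.dot hu.1
    rw [crdV, crdV, ih hu.2, show dotInt v (vN u) % 16 = dotInt w (vN u) % 16 by omega]

def cmbF (ws : List ℕ) (a k : ℕ) (i : ℕ) : ℤ :=
  Nat.rec (motive := fun _ => ℤ) 0 (fun j ih => bif' (tb a j) (Int.add (vecN (getL ws (nat_lit 0) j) i) ih) ih) k

def cmbV (ws : List ℕ) (k a : ℕ) : Vec := vecF (cmbF ws a k)

theorem cmbV_zero (ws : List ℕ) (a : ℕ) : cmbV ws 0 a = 0 := rfl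

theorem cmbV_succ (ws : List ℕ) (k a : ℕ) :
    cmbV ws (k + 1) a = bif' (tb a k) (vN (getL ws 0 k) + cmbV ws k a) (cmbV ws k a) := by
  funext p
  show bif' (tb a k) _ _ = _
  cases tb a k <;> rfl

theorem cmbV_ind (P : Vec → Prop) (h0 : P 0) (hadd : ∀ v w, P v → P w → P (v + w)) {ws : List ℕ} {k : ℕ}
    (h : ∀ j < k, P (vN (getL ws 0 j))) (a : ℕ) : P (cmbV ws k a) := by
  induction k with
  | zero => exact h0
  | succ k ih =>
    have := ih fun j hj => h j (by omega)
    rw [cmbV_succ]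
    cases tb a k
    exacts [this, hadd _ _ (h k (by omega)) this]

theorem cmbV_mem {ws : List ℕ} {k : ℕ} (h : ∀ j < k, vN (getL ws 0 j) ∈ Λ) (a : ℕ) : cmbV ws k a ∈ Λ :=
  cmbV_ind _ (zero_mem _) (fun _ _ => add_mem) h a

theorem cmbV_zero' (ws : List ℕ) (k : ℕ) : cmbV ws k 0 = 0 := by
  induction k with
  | zero => rfl
  | succ k ih =>
    rw [cmbV_succ, show tb 0 k = false from Bool.eq_false_iff.2 fun e => by simpa using e]
    exact ih

theorem tb_xor (a b k : ℕ) : tb (a ^^^ b) k = (tb a k != tb b k) := by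
  rw [Bool.eq_iff_iff, tb_eq_true, Nat.testBit_xor]
  have h : ∀ m, m.testBit k = tb m k := fun m => Bool.eq_iff_iff.2 tb_eq_true.symm
  rw [h, h]

theorem cmbV_xor {ws : List ℕ} {k : ℕ} (h : ∀ j < k, vN (getL ws 0 j) ∈ Λ) (a b : ℕ) :
    Cong (cmbV ws k a + cmbV ws k b) (cmbV ws k (a ^^^ b)) := by
  induction k with
  | zero => exact (add_zero (0 : Vec)).symm ▸ Cong.refl _
  | succ k ih =>
    have h1 := ih fun j hj => h j (by omega)
    have h2 := h k (by omega)
    rw [cmbV_succ, cmbV_succ, cmbV_succ, tb_xor]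
    cases tb a k <;> cases tb b k
    · exact h1
    · exact add_left_comm (vN (getL ws 0 k)) (cmbV ws k a) (cmbV ws k b) ▸ (Cong.refl _).add h1
    · exact (add_assoc (vN _) _ _).symm ▸ (Cong.refl _).add h1
    · exact (add_add_add_comm (vN (getL ws 0 k)) _ _ _).symm ▸ (zero_add (cmbV ws k (a ^^^ b)) ▸
        (cong_add_self h2).add h1 :)

/-- a linear map given by its columns -/
def xsel (T a k : ℕ) : ℕ :=
  Nat.rec (motive := fun _ => ℕ) (nat_lit 0)
    (fun j ih => bif' (tb a j) (Nat.xor (pick T (nat_lit 16) (nat_lit 65535) j) ih) ih) k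

theorem map_cmbV (g : Vec → ℕ) (h0 : g 0 = 0) (hadd : ∀ v ∈ Λ, ∀ w ∈ Λ, g (v + w) = g v ^^^ g w)
    {ws : List ℕ} {k T : ℕ} (hw : ∀ j < k, vN (getL ws 0 j) ∈ Λ)
    (h : ∀ j < k, g (vN (getL ws 0 j)) = pick T 16 65535 j) (a : ℕ) : g (cmbV ws k a) = xsel T a k := by
  induction k with
  | zero => exact h0
  | succ k ih =>
    have h1 := ih (fun j hj => hw j (by omega)) fun j hj => h j (by omega)
    rw [cmbV_succ]
    show _ = bif' (tb a k) (pick T 16 65535 k ^^^ xsel T a k) (xsel T a k)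
    cases tb a k
    · exact h1
    · rw [bif'_true, bif'_true, hadd _ (hw k (by omega)) _ (cmbV_mem (fun j hj => hw j (by omega)) a), h1,
        h k (by omega)]

def basChk (ws us : List ℕ) (k I : ℕ) : Bool :=
  band (allR (fun j => force (getL ws (nat_lit 0) j) fun w => band (lchk (vecN w))
      (Nat.beq (crdF us (vecN w)) (pick I (nat_lit 16) (nat_lit 65535) j))) k)
    (band (allL (fun u => lchk (vecN u)) us) (allP (fun a => Nat.beq (xsel I a k) a) k (nat_lit 0)))

theorem basChk_spec {ws us : List ℕ} {k I : ℕ} (h : basChk ws us k I = true) :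
    (∀ j < k, vN (getL ws 0 j) ∈ Λ) ∧ (∀ u ∈ us, vN u ∈ Λ) ∧ ∀ a < 2 ^ k, crdV us (cmbV ws k a) = a := by
  simp only [basChk, band_eq_true, allR_eq_true, allL_eq_true, force_eq, beq_iff] at h
  obtain ⟨h1, h2, h3⟩ := h
  have hw : ∀ j < k, vN (getL ws 0 j) ∈ Λ := fun j hj => mem_of_lchk (h1 j hj).1
  have hu : ∀ u ∈ us, vN u ∈ Λ := fun u hu => mem_of_lchk (h2 u hu)
  refine ⟨hw, hu, fun a ha => ?_⟩
  rw [map_cmbV _ (crdV_zero us) (fun v hv w hw => crdV_add hu hv hw) hw fun j hj =>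
    (crdV_vecF _ _).trans (h1 j hj).2]
  exact beq_iff.1 (allP_zero h3 a ha)

/-- the sum over the powers of the inverse of a permutation -/
def nF (c : ℕ) (f : ℕ → ℤ) (n : ℕ) : ℕ → ℤ :=
  Nat.rec (motive := fun _ => ℕ → ℤ) (fun _ => 0) (fun _ ih i => Int.add (f i) (ih (dig c i))) n

def nV (y : Co0) (v : Vec) : ℕ → Vec
  | 0 => 0
  | n + 1 => v + act y (nV y v n)

theorem nV_mem (y : Co0) {v : Vec} (hv : v ∈ Λ) (n : ℕ) : nV y v n ∈ Λ := by
  induction n with
  | zero => exact zero_mem _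
  | succ n ih => exact add_mem hv (act_mem _ ih)

theorem nV_add (y : Co0) {v w : Vec} (hv : v ∈ Λ) (hw : w ∈ Λ) (n : ℕ) :
    nV y (v + w) n = nV y v n + nV y w n := by
  induction n with
  | zero => exact (add_zero _).symm
  | succ n ih => rw [nV, nV, nV, ih, act_add _ (nV_mem y hv n) (nV_mem y hw n), add_add_add_comm]

theorem nV_zero (y : Co0) (n : ℕ) : nV y 0 n = 0 := by
  induction n with
  | zero => rfl
  | succ n ih => rw [nV, ih, act_zero, add_zero]

theorem nV_neg (y : Co0) {v : Vec} (hv : v ∈ Λ) (n : ℕ) : nV y (-v) n = -nV y v n := by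
  rw [eq_neg_iff_add_eq_zero, ← nV_add y (neg_mem hv) hv, neg_add_cancel, nV_zero]

theorem nV_vecF {π : Perm Pt} (hπ : π ∈ M24) {f : ℕ → ℤ} (hf : vecF f ∈ Λ) (n : ℕ) :
    nV (pC π⁻¹) (vecF f) n = vecF (nF (code π) f n) := by
  induction n with
  | zero => rfl
  | succ n ih =>
    rw [nV, act_pC (inv_mem hπ) (nV_mem _ hf n), ih, prm_vecF]
    rfl

theorem nV_cong {y : Co0} {v : Vec} (hv : v ∈ Λ) (h : FixC y v) (n : ℕ) : Cong (nV y v (2 * n + 1)) v := by
  induction n with
  | zero => rw [nV, nV, act_zero, add_zero]; exact Cong.refl _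
  | succ n ih =>
    rw [show 2 * (n + 1) + 1 = 2 * n + 1 + 1 + 1 by ring, nV, nV]
    have h1 := ((Cong.refl v).add ((ih.act hv y).trans h)).trans (cong_add_self hv)
    have h2 := (Cong.refl v).add (h1.act (zero_mem _) y)
    rwa [act_zero, add_zero] at h2

theorem FixC.symm {y : Co0} {v : Vec} (hv : v ∈ Λ) (h : FixC y v) : FixC y⁻¹ v := by
  have := Cong.act h hv y⁻¹
  rw [act_inv_act] at this
  exact this.symm

def fixChk (c n : ℕ) (ws us : List ℕ) (k : ℕ) : Bool :=
  band (allR (fun j => force (getL ws (nat_lit 0) j) fun w => congChk (prmF c (vecN w)) (vecN w)) k)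
    (allL (fun g => pkGo (nF c (vecN g) (Nat.succ (Nat.mul (nat_lit 2) n))) fun P =>
      force (crdF us (vecN P)) fun a => pkGo (cmbF ws a k) fun P' => congChk (vecN P) (vecN P')) genN)

theorem crd_of_chk {π : Perm Pt} (hπ : π ∈ M24) {n k I : ℕ} {ws us : List ℕ} (hk : us.length = k)
    (h1 : basChk ws us k I = true) (h2 : fixChk (code π) n ws us k = true) :
    Crd (centralizer {pC π}) (FixC (pC π)) (2 ^ k) (crdV us) (cmbV ws k) := by
  obtain ⟨hw, hu, h3⟩ := basChk_spec h1
  simp only [fixChk, band_eq_true, allR_eq_true, allL_eq_true, force_eq] at h2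
  refine ⟨cmbV_mem hw, fun a => ?_, fun v => hk ▸ crdV_lt us v, h3, fun v hv h => ?_,
    fun v w _ h => crdV_cong hu h, fun h hh v hv e => e.inv hh hv⟩
  · refine (cmbV_ind (fun v => v ∈ Λ ∧ FixC (pC π) v) ⟨zero_mem _, by rw [FixC, act_zero]; exact Cong.refl _⟩
      (fun v w h h' => ⟨add_mem h.1 h'.1, by rw [FixC, act_add _ h.1 h'.1]; exact Cong.add h.2 h'.2⟩)
      (fun j hj => ⟨hw j hj, ?_⟩) a).2
    have : Cong (prm π⁻¹ (vN (getL ws 0 j))) (vN (getL ws 0 j)) := by
      rw [vN, prm_vecF]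
      exact cong_of_congChk (h2.1 j hj)
    rw [← act_pC (inv_mem hπ) (hw j hj), pC_inv hπ] at this
    exact inv_inv (pC π) ▸ FixC.symm (hw j hj) this
  · have e := nV_cong hv (h.symm hv) n
    rw [← pC_inv hπ] at e
    rw [← crdV_cong hu e]
    refine e.symm.trans (leech_indN (fun v => Cong (nV (pC π⁻¹) v (2 * n + 1))
      (cmbV ws k (crdV us (nV (pC π⁻¹) v (2 * n + 1))))) ?_ (fun x hx y hy e1 e2 => ?_) (fun x hx e1 => ?_)
      (fun g hg => ?_) hv)
    · rw [nV_zero, crdV_zero, cmbV_zero']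
      exact Cong.refl _
    · rw [nV_add _ hx hy, crdV_add hu (nV_mem _ hx _) (nV_mem _ hy _)]
      exact (e1.add e2).trans (cmbV_xor hw _ _)
    · rw [nV_neg _ hx, crdV_cong hu (cong_neg (nV_mem _ hx _))]
      exact (cong_neg (nV_mem _ hx _)).trans e1
    · obtain ⟨P, e1, h4⟩ := pkGo_spec (h2.2 g hg)
      obtain ⟨P', e2, h5⟩ := pkGo_spec h4
      have e3 : nV (pC π⁻¹) (vN g) (2 * n + 1) = vN P := (nV_vecF hπ (genN_mem g hg) _).trans e1.symm
      rw [e3, show crdV us (vN P) = crdF us (vecN P) from crdV_vecF _ _]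
      exact (show vN P' = cmbV ws k _ from e2) ▸ cong_of_congChk h5

def matChk (l : Word) (ws us : List ℕ) (k T : ℕ) : Bool :=
  allR (fun j => wordGo l (fun P => Nat.beq (crdF us (vecN P)) (pick T (nat_lit 16) (nat_lit 65535) j))
    (getL ws (nat_lit 0) j)) k

theorem matChk_spec {l : Word} {ws us : List ℕ} {k T : ℕ} (hw : ∀ j < k, vN (getL ws 0 j) ∈ Λ)
    (hu : ∀ u ∈ us, vN u ∈ Λ) (hl : wordOk l = true) (h : matChk l ws us k T = true) (a : ℕ) :
    crdV us (act (wordC l) (cmbV ws k a)) = xsel T a k := by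
  refine map_cmbV (fun v => crdV us (act (wordC l) v)) (by rw [act_zero, crdV_zero])
    (fun v hv w hw => by rw [act_add _ hv hw, crdV_add hu (act_mem _ hv) (act_mem _ hw)]) hw (fun j hj => ?_) a
  obtain ⟨P, e, h1⟩ := wordGo_spec hl (allR_eq_true.1 h j hj) (hw j hj)
  rw [e]
  exact (crdV_vecF _ _).trans (beq_iff.1 h1)

def genChk (c : ℕ) (ws us : List ℕ) (k : ℕ) (l : Word) (T : ℕ) : Bool :=
  band (wordOk l) (band (comChk l c c) (matChk l ws us k T))

theorem genChk_spec {π : Perm Pt} (hπ : π ∈ M24) {k I : ℕ} {ws us : List ℕ}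
    (C : Crd (centralizer {pC π}) (FixC (pC π)) (2 ^ k) (crdV us) (cmbV ws k)) (h1 : basChk ws us k I = true)
    {l : Word} {T : ℕ} (h : genChk (code π) ws us k l T = true) :
    ∃ h : centralizer ({pC π} : Set Co0), h = wordC l ∧ ∀ a, (C.rho h a : ℕ) = xsel T a k := by
  obtain ⟨hw, hu, -⟩ := basChk_spec h1
  simp only [genChk, band_eq_true] at h
  exact ⟨⟨_, mem_cent_iff.2 (comChk_spec hπ hπ h.1 h.2.1)⟩, rfl, fun a => matChk_spec hw hu h.1 h.2.2 a⟩

/-- the orbit label of a class -/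
def lb (L a : ℕ) : ℕ := Nat.shiftRight (pick L (nat_lit 16) (nat_lit 65535) a) (nat_lit 12)

def bfsChk (Ts roots : List ℕ) (L k : ℕ) : Bool :=
  allP (fun a => force (pick L (nat_lit 16) (nat_lit 65535) a) fun x =>
    force (Nat.shiftRight x (nat_lit 12)) fun j => bor (Nat.beq a (getL roots (nat_lit 0) j))
      (force (xsel (getL Ts (nat_lit 0) (pick x (nat_lit 8) (nat_lit 15) (nat_lit 1))) a k) fun a' =>
        force (pick L (nat_lit 16) (nat_lit 65535) a') fun x' =>
          band (band (blt' (pick x (nat_lit 8) (nat_lit 15) (nat_lit 1)) Ts.length)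
            (Nat.beq (Nat.shiftRight x' (nat_lit 12)) j))
            (blt' (Nat.land x' (nat_lit 255)) (Nat.land x (nat_lit 255))))) k (nat_lit 0)

theorem getL_mem_of_lt {l : List ℕ} {d i : ℕ} (h : i < l.length) : getL l d i ∈ l := by
  induction l generalizing i with
  | nil => exact absurd h (Nat.not_lt_zero _)
  | cons a l ih =>
    cases i with
    | zero => exact List.mem_cons_self
    | succ i => exact List.mem_cons_of_mem _ (ih (Nat.lt_of_succ_lt_succ h))

theorem bfsChk_spec {Ts roots : List ℕ} {L k : ℕ} (h : bfsChk Ts roots L k = true) {H : Type*} [Group H]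
    (ρ : H →* Perm (Fin (2 ^ k))) (S : Subgroup H) (hS : ∀ T ∈ Ts, ∃ s ∈ S, ∀ a, (ρ s a : ℕ) = xsel T a k)
    (a : Fin (2 ^ k)) : ∃ s ∈ S, (ρ s a : ℕ) = getL roots 0 (lb L a) := by
  induction hn : Nat.land (pick L 16 65535 a) 255 using Nat.strong_induction_on generalizing a with
  | _ n ih =>
    have h1 := allP_zero h a a.2
    simp only [force_eq, bor_eq_true, band_eq_true, beq_iff, blt'_eq_true] at h1
    rcases h1 with h1 | ⟨⟨h1, h2⟩, h3⟩
    · exact ⟨1, one_mem _, by rw [map_one]; exact h1⟩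
    · obtain ⟨s, hs, e⟩ := hS _ (getL_mem_of_lt h1)
      rw [← e] at h2 h3
      obtain ⟨s', hs', e'⟩ := ih _ (hn ▸ h3) (ρ s a) rfl
      exact ⟨s' * s, mul_mem hs' hs, by rw [map_mul, Perm.mul_apply, e', lb, h2]; rfl⟩

def cntR (q : ℕ → Bool) (n : ℕ) : ℕ := sumR (fun a => bif' (q a) (nat_lit 1) (nat_lit 0)) n

theorem ncard_fin (q : ℕ → Bool) (n : ℕ) : {a : Fin n | q a = true}.ncard = cntR q n := by
  rw [cntR, sumR_eq, ← Fin.sum_univ_eq_sum_range (fun a => bif' (q a) 1 0), Set.ncard_eq_toFinset_card',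
    Set.toFinset_setOf, Finset.card_filter]
  exact Finset.sum_congr rfl fun a _ => (bif'_eq _ _ _).symm

def shortChk (ws : List ℕ) (k r P : ℕ) : Bool :=
  band (lchk (vecN P)) (band (decide (dotF (vecN P) (vecN P) < 64))
    (pkGo (cmbF ws r k) fun P' => congChk (vecN P') (vecN P)))

theorem not_T4_of_chk {ws : List ℕ} {k r P : ℕ} (h : shortChk ws k r P = true) : ¬ T4 (cmbV ws k r) := by
  simp only [shortChk, band_eq_true, decide_eq_true_eq] at h
  obtain ⟨P', e, h1⟩ := pkGo_spec h.2.2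
  exact not_T4 (mem_of_lchk h.1) ((show vN P' = cmbV ws k r from e) ▸ cong_of_congChk h1)
    (by rw [sqNorm_vecF]; exact h.2.1)

def fcChk (c : ℕ) (FB : List ℕ) (m : ℕ) : Bool :=
  allP (fun k => force (cw k) fun w => bimp (Nat.beq (mapp c w) w)
    (anyR (fun j => Nat.beq w (xorSel FB j (nat_lit 0))) m)) (nat_lit 12) (nat_lit 0)

theorem fcChk_spec {π : Perm Pt} {FB : List ℕ} {m : ℕ} (h : fcChk (code π) FB m = true) {c : Finset Pt}
    (hc : c ∈ Cs) (e : π • c = c) : ∃ j < m, c = unmask (xorSel FB j 0) := by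
  obtain ⟨k, hk, e1⟩ := exists_cw hc
  have h1 := allP_zero h k hk
  rw [force_eq, e1, bimp_eq_true, beq_iff, mapp_code, e, anyR_eq_true] at h1
  obtain ⟨j, hj, e2⟩ := h1 rfl
  exact ⟨j, hj, by rw [← unmask_mask c, beq_iff.1 e2]⟩

theorem eps_xorSel_mem {S : Subgroup Co0} {FB : List ℕ} (h : ∀ s ∈ FB, isC s = true ∧ eps (unmask s) ∈ S)
    (j : ℕ) : eps (unmask (xorSel FB j 0)) ∈ S := by
  refine (xorSel_ind (fun s => isC s = true ∧ eps (unmask s) ∈ S)
    ⟨by decide +kernel, by rw [unmask_zero, eps_empty]; exact one_mem _⟩ (fun a b ha hb => ⟨isC_xor ha.1 hb.1, ?_⟩)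
    FB h j 0).2
  obtain ⟨h1, e1⟩ := unmask_mem_Cs ha.1
  obtain ⟨h2, e2⟩ := unmask_mem_Cs hb.1
  have : unmask (a ^^^ b) = unmask a ∆ unmask b := by
    rw [← unmask_mask (_ ∆ _), mask_symmDiff, e1, e2]; rfl
  rw [this, ← eps_mul h1 h2]
  exact mul_mem ha.2 hb.2

theorem mem_of_mon {π : Perm Pt} (hπ : π ∈ M24) {FB gens : List ℕ} {m : ℕ} (h1 : fcChk (code π) FB m = true)
    (h2 : CM π ≤ gen gens) (h3 : ∀ c ∈ gens, chk c = true) (h4 : ∀ s ∈ FB, isC s = true) (S : Subgroup Co0)
    (h5 : ∀ s ∈ FB, wordC [(pone, s, false)] ∈ S) (h6 : ∀ c ∈ gens, wordC [(c, 0, false)] ∈ S) {h : Co0}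
    (hh : h ∈ centralizer ({pC π} : Set Co0)) (hm : h ∈ Mon) : h ∈ S := by
  obtain ⟨c, hc, e, σ, hσ, rfl⟩ := exists_of_cent_mon hπ hh hm
  obtain ⟨j, -, rfl⟩ := fcChk_spec h1 hc e
  refine mul_mem (eps_xorSel_mem (fun s hs => ⟨h4 s hs, wordC_eps s ▸ h5 s hs⟩) j) ?_
  obtain ⟨g, hg, e1⟩ := gen_le (H := (S.comap pHom).map M24.subtype) (fun c hc => ⟨perm c,
    ⟨⟨_, perm_mem_M24 (h3 c hc)⟩, (inv_mem_iff (x := pC (perm c))).1 (by
      rw [← pC_inv (perm_mem_M24 (h3 c hc)), ← wordC_perm]; exact h6 c hc), rfl⟩, code_perm_chk (h3 c hc)⟩) (h2 hσ)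
  exact e1 ▸ hg

def blkChk (blks : List ℕ) (k n T c : ℕ) : Bool :=
  band (band (valid c) (allR (fun j => bor (blt' j n) (Nat.beq (dig c j) j)) 24))
    (allP (fun a => force (xsel T a k) fun a' => allR (fun i =>
      bif' (tb (getL blks (nat_lit 0) (dig c i)) a') (tb (getL blks (nat_lit 0) i) a)
        (bnot (tb (getL blks (nat_lit 0) i) a))) n) k (nat_lit 0))

def sepChk (blks : List ℕ) (k n L : ℕ) : Bool :=
  band (allR (fun i => allR (fun j => bor (Nat.beq i j)
      (anyR (fun a => band (tb (getL blks (nat_lit 0) i) a) (bnot (tb (getL blks (nat_lit 0) j) a))) (2 ^ k))) i) n)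
    (allP (fun a => bor (Nat.beq (lb L a) (nat_lit 0)) (allR (fun i => bnot (tb (getL blks (nat_lit 0) i) a)) n))
      k (nat_lit 0))

/-- the structure of a centralizer from a certificate -/
theorem cent_main {π : Perm Pt} (hπ : π ∈ M24) {p : ℕ} (hp : Odd p) (ho : orderOf π = p) {k I L m n nO cm : ℕ}
    {ws us FB gens roots blks : List ℕ}
    (C : Crd (centralizer {pC π}) (FixC (pC π)) (2 ^ k) (crdV us) (cmbV ws k)) (hb : basChk ws us k I = true)
    (h1 : fcChk (code π) FB m = true) (h2 : CM π ≤ gen gens) (h2' : Nat.card (CM π) ≤ cm)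
    (h3 : allL chk gens = true) (h4 : allL isC FB = true) (D : List (Word × ℕ × ℕ))
    (h5 : ∀ s ∈ FB, [(pone, s, false)] ∈ D.map (·.1)) (h6 : ∀ c ∈ gens, [(c, 0, false)] ∈ D.map (·.1))
    (hD : ∀ d ∈ D, genChk (code π) ws us k d.1 d.2.1 = true)
    (hD' : allL (fun d => blkChk blks k n d.2.1 d.2.2) D = true) (hsep : sepChk blks k n L = true)
    (hbfs : bfsChk (D.map (·.2.1)) roots L k = true) (hr0 : getL roots 0 0 = crdF us (vecN (e8N 23)))
    (hroots : ∀ a : Fin (2 ^ k), a ∈ C.orbE (e8 none) → ∀ j, getL roots 0 j = a → j = 0)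
    (hnO : cntR (fun a => Nat.beq (lb L a) 0) (2 ^ k) = nO) (hodd : nO % 2 = 1)
    {Y ι : Type*} [Group Y] [Finite Y] (α : Y →* Perm ι) (hα : Function.Injective α) (ix : ι → ℕ) (hn : n ≤ 24)
    (i1 : ∀ i, ix i < n) (i2 : Function.Injective ix) (i3 : ∀ j < n, ∃ i, ix i = j)
    (hY : ∀ d ∈ D, ∃ y, ∀ i, ix (α y i) = dig d.2.2 (ix i)) (cert : List (ℕ × ℕ × List (List ℕ)))
    (hc1 : Nat.card Y ≤ chainLB cert (D.map (·.2.2))) (hc2 : nO * (m * cm) ≤ 2 * p * chainLB cert (D.map (·.2.2))) :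
    ∃ f : centralizer ({pC π} : Set Co0) →* Y, Function.Surjective f ∧ (∀ h, f h = 1 ↔ InK (pC π) h) ∧
      (∀ h ∈ centralizer ({pC π} : Set Co0), (∀ v ∈ Λ, FixC (pC π) v → FixC h v) → InK (pC π) h) ∧
      ∀ T : Subgroup Y, T.Normal → IsPGroup 2 T → T = ⊥ := by
  have he := fixC_e8 hπ
  have hpt : (C.pt (e8 none) : ℕ) = getL roots 0 0 := by
    rw [hr0, ← crdV_vecF]
    exact congrArg (crdV us) (vN_e8N none).symm
  set mem : Fin (2 ^ k) → ι → Bool := fun a i => tb (getL blks 0 (ix i)) a with hmem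
  simp only [sepChk, band_eq_true, allR_eq_true, bor_eq_true, beq_iff, anyR_eq_true, bnot_eq_true] at hsep
  have hD2 : ∀ d ∈ D, ∃ (h : centralizer ({pC π} : Set Co0)) (y : Y), h = wordC d.1 ∧
      (∀ a, (C.rho h a : ℕ) = xsel d.2.1 a k) ∧ (∀ a i, mem (C.rho h a) (α y i) = mem a i) ∧
      valid d.2.2 = true ∧ (∀ j < 24, n ≤ j → dig d.2.2 j = j) ∧ ∀ i, ix (α y i) = dig d.2.2 (ix i) := by
    intro d hd
    obtain ⟨h, e1, e2⟩ := genChk_spec hπ C hb (hD d hd)
    obtain ⟨y, e3⟩ := hY d hd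
    have h7 := allL_eq_true.1 hD' d hd
    simp only [blkChk, band_eq_true, allR_eq_true, bor_eq_true, beq_iff, blt'_eq_true] at h7
    refine ⟨h, y, e1, e2, fun a i => ?_, h7.1.1, fun j hj hj' => (h7.1.2 j hj).resolve_left (by omega), e3⟩
    have h8 := allP_zero h7.2 a a.2
    rw [force_eq, allR_eq_true] at h8
    have h9 := h8 _ (i1 i)
    show tb (getL blks 0 (ix (α y i))) (C.rho h a) = tb (getL blks 0 (ix i)) a
    rw [e2, e3]
    revert h9
    show bif' (tb (getL blks 0 _) _) (tb (getL blks 0 _) _) (bnot (tb (getL blks 0 _) _)) = true → _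
    cases tb (getL blks 0 (dig d.2.2 (ix i))) (xsel d.2.1 a k) <;> cases tb (getL blks 0 (ix i)) a <;> decide
  have hbf : ∀ S : Subgroup (centralizer ({pC π} : Set Co0)),
      (∀ h y, (∀ a i, mem (C.rho h a) (α y i) = mem a i) → h ∈ S) →
      ∀ a, ∃ s ∈ S, (C.rho s a : ℕ) = getL roots 0 (lb L a) := fun S hS => bfsChk_spec hbfs C.rho S (by
    intro T hT
    obtain ⟨d, hd, rfl⟩ := List.mem_map.1 hT
    obtain ⟨h, y, -, e2, e3, -⟩ := hD2 d hd
    exact ⟨h, hS h y e3, e2⟩)
  have horb : ∀ a, a ∈ C.orbE (e8 none) ↔ lb L a = 0 := fun a => by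
    obtain ⟨s, -, e⟩ := hbf ⊤ (fun _ _ _ => mem_top _) a
    refine ⟨fun h => hroots _ ((C.orbE_rho s).2 h) _ e.symm, fun h => (C.orbE_rho s).1 ⟨1, ?_⟩⟩
    rw [map_one]
    exact Fin.ext (hpt.trans (h ▸ e).symm)
  obtain ⟨f, hf⟩ := C.exists_hom α hα mem (fun i j h => by
      by_contra hij
      have key : ∀ i j, ix j < ix i → ¬ ∀ a, mem a i = mem a j := fun i j hlt h => by
        obtain ⟨a, ha, e1, e2⟩ := (hsep.1 _ (i1 i) _ hlt).resolve_left hlt.ne'
        exact e2 ((h ⟨a, ha⟩).symm.trans e1)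
      rcases lt_or_gt_of_ne fun e => hij (i2 e) with e | e
      exacts [key j i e fun a => (h a).symm, key i j e h])
    fun S hS => C.eq_top he S (fun h hm => by
      have hw : ∀ l ∈ D.map (·.1), wordC l ∈ S.map (centralizer ({pC π} : Set Co0)).subtype := by
        intro l hl
        obtain ⟨d, hd, rfl⟩ := List.mem_map.1 hl
        obtain ⟨h, y, e1, -, e3, -⟩ := hD2 d hd
        exact ⟨h, hS h y e3, e1⟩
      obtain ⟨s, hs, e⟩ := mem_of_mon hπ h1 h2 (allL_eq_true.1 h3) (allL_eq_true.1 h4) _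
        (fun s hs => hw _ (h5 s hs)) (fun c hc => hw _ (h6 c hc)) h.2 hm
      exact (Subtype.ext e : s = h) ▸ hs) fun a ha => by
        obtain ⟨s, hs, e⟩ := hbf S hS a
        exact ⟨s, hs, Fin.ext (by rw [e, (horb a).1 ha, hpt])⟩
  have hlb : chainLB cert (D.map (·.2.2)) ≤ Nat.card f.range := by
    rw [← card_map_of_injective (K := f.range) hα]
    refine chainLB_le_of_emb ix hn i1 i2 i3 _ (fun c hc => ?_) cert
    obtain ⟨d, hd, rfl⟩ := List.mem_map.1 hc
    obtain ⟨h, y, -, -, e3, e4, e5, e6⟩ := hD2 d hd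
    exact ⟨e4, e5, _, ⟨y, ⟨h, (hf h y).2 e3⟩, rfl⟩, e6⟩
  have hsurj : Function.Surjective f := MonoidHom.range_eq_top.1 (eq_top_of_le_card _ (hc1.trans hlb))
  have hρ : ∀ h, (∀ a ∈ C.orbE (e8 none), C.rho h a = a) → f h = 1 := fun h e => (hf h 1).2 fun a i => by
    rw [map_one, Perm.one_apply]
    by_cases ha : a ∈ C.orbE (e8 none)
    · rw [e a ha]
    · have key : ∀ a, a ∉ C.orbE (e8 none) → mem a i = false := fun a ha => by
        have := allP_zero hsep.2 a a.2
        rw [bor_eq_true, beq_iff, allR_eq_true] at this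
        exact Bool.eq_false_iff.2 (bnot_eq_true.1 ((this.resolve_left fun e => ha ((horb a).2 e)) _ (i1 i)))
      rw [key a ha, key _ fun e => ha ((C.orbE_rho h).1 e)]
  have hO : (C.orbE (e8 none)).ncard = nO := by
    rw [← hnO, ← ncard_fin]
    exact congrArg _ (Set.ext fun a => (horb a).trans beq_iff.symm)
  have hK : ∀ h : centralizer ({pC π} : Set Co0), InK (pC π) h → C.rho h = 1 := fun h e =>
    C.rho_eq_one fun v hv e' => e.fix hv e'
  have hker : ∀ h, f h = 1 ↔ InK (pC π) h := fun h => by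
    refine ⟨fun e => inK_of_card hp ?_ (K := f.ker) (fun h e => hρ h fun a _ => by rw [hK h e]; rfl) ?_ e,
      fun e => hρ h fun a _ => by rw [hK h e]; rfl⟩
    · rw [← ho, ← Subgroup.orderOf_mk π hπ]
      exact orderOf_injective pHom ((injective_iff_map_eq_one _).2 fun a ha =>
        Subtype.ext (eq_one_of_pC_mem_Sg a.2 ((show pC a = 1 from ha) ▸ one_mem _))) ⟨π, hπ⟩
    · have e1 := f.ker.card_mul_index
      rw [index_ker, C.card_H he, hO] at e1
      have e2 := card_cent_mon hπ _ fun c hc e => fcChk_spec h1 hc e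
      refine Nat.le_of_mul_le_mul_right ?_ (Nat.card_pos (α := f.range))
      rw [e1]
      exact (Nat.mul_le_mul_left _ (e2.trans (Nat.mul_le_mul_left _ h2'))).trans
        (hc2.trans (Nat.mul_le_mul_left _ hlb))
  refine ⟨f, hsurj, hker, fun h hh e => (hker ⟨h, hh⟩).1 (hρ _ fun a _ => by rw [C.rho_eq_one (h := ⟨h, hh⟩) e]; rfl),
    C.O2_eq_bot f hsurj (fun h e => hK h ((hker h).1 e)) hρ (hO ▸ hodd)⟩

end

end CA.M24

theorem CA.M24.realizeEqnsCent2 : True := by
  have := @CA.M24.basChk.eq_1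
  have := @CA.M24.basChk.eq_def
  have := @CA.M24.basChk.congr_simp
  have := @CA.M24.shortChk.eq_1
  have := @CA.M24.shortChk.eq_def
  have := @CA.M24.shortChk.congr_simp
  have := @CA.M24.xsel.eq_1
  have := @CA.M24.xsel.eq_def
  have := @CA.M24.xsel.congr_simp
  have := @CA.M24.cntR.eq_1
  have := @CA.M24.cntR.eq_def
  have := @CA.M24.cntR.congr_simp
  have := @CA.M24.sepChk.eq_1
  have := @CA.M24.sepChk.eq_def
  have := @CA.M24.sepChk.congr_simp
  have := @CA.M24.genN.eq_1
  have := @CA.M24.genN.eq_def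
  have := @CA.M24.genN.congr_simp
  have := @CA.M24.genChk.eq_1
  have := @CA.M24.genChk.eq_def
  have := @CA.M24.genChk.congr_simp
  have := @CA.M24.nV.eq_1
  have := @CA.M24.nV.eq_2
  have := @CA.M24.nV.eq_def
  have := @CA.M24.nV.congr_simp
  have := @CA.M24.wordOk.eq_1
  have := @CA.M24.wordOk.eq_def
  have := @CA.M24.wordOk.congr_simp
  have := @CA.M24.nF.eq_1
  have := @CA.M24.nF.eq_def
  have := @CA.M24.nF.congr_simp
  have := @CA.M24.vN.eq_1
  have := @CA.M24.vN.eq_def
  have := @CA.M24.vN.congr_simp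
  have := @CA.M24.cmbV.eq_1
  have := @CA.M24.cmbV.eq_def
  have := @CA.M24.cmbV.congr_simp
  have := @CA.M24.fixChk.eq_1
  have := @CA.M24.fixChk.eq_def
  have := @CA.M24.fixChk.congr_simp
  have := @CA.M24.comChk.eq_1
  have := @CA.M24.comChk.eq_def
  have := @CA.M24.comChk.congr_simp
  have := @CA.M24.cmbF.eq_1
  have := @CA.M24.cmbF.eq_def
  have := @CA.M24.cmbF.congr_simp
  have := @CA.M24.crdV.eq_1
  have := @CA.M24.crdV.eq_2
  have := @CA.M24.crdV.eq_def
  have := @CA.M24.crdV.congr_simp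
  have := @CA.M24.bfsChk.eq_1
  have := @CA.M24.bfsChk.eq_def
  have := @CA.M24.bfsChk.congr_simp
  have := @CA.M24.crdF.eq_1
  have := @CA.M24.crdF.eq_def
  have := @CA.M24.crdF.congr_simp
  have := @CA.M24.fcChk.eq_1
  have := @CA.M24.fcChk.eq_def
  have := @CA.M24.fcChk.congr_simp
  have := @CA.M24.matChk.eq_1
  have := @CA.M24.matChk.eq_def
  have := @CA.M24.matChk.congr_simp
  have := @CA.M24.pkGo.eq_1
  have := @CA.M24.pkGo.eq_def
  have := @CA.M24.pkGo.congr_simp
  have := @CA.M24.pk.congr_simp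
  have := @CA.M24.wordGo.eq_1
  have := @CA.M24.wordGo.eq_def
  have := @CA.M24.wordGo.congr_simp
  have := @CA.M24.e8N.eq_1
  have := @CA.M24.e8N.eq_def
  have := @CA.M24.e8N.congr_simp
  have := @CA.M24.blkChk.eq_1
  have := @CA.M24.blkChk.eq_def
  have := @CA.M24.blkChk.congr_simp
  have := @CA.M24.Word.eq_1
  have := @CA.M24.Word.eq_def
  have := @CA.M24.Word.congr_simp
  have := @CA.M24.wordC.eq_1
  have := @CA.M24.wordC.eq_2
  have := @CA.M24.wordC.eq_def
  have := @CA.M24.wordC.congr_simp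
  have := @CA.M24.lb.eq_1
  have := @CA.M24.lb.eq_def
  have := @CA.M24.lb.congr_simp
  have := @CA.M24.dotF.eq_1
  have := @CA.M24.dotF.eq_def
  have := @CA.M24.dotF.congr_simp
  trivial
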