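import Cfsg.Agent.M24.Sect
import Cfsg.Agent.M24.Misc

/-! Groups of Monster type: elements of odd prime order centralizing a 2B-pure four-group. -/

set_option autoImplicit false

namespace CA.M24

open Cfsg Subgroup CA.Fi CA.FG.Comp

noncomputable section

local notation "Λ" => leechLattice

universe u

variable {G : Type u} [Group G]

theorem card_Mon : Nat.card Mon = 4096 * 244823040 := by
  rw [← card_M24, ← ncard_Cs, ← Nat.card_coe_set_eq, ← Nat.card_prod]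
  refine (Nat.card_congr (Equiv.ofBijective (fun a : Cs × M24 => (⟨eps a.1 * pC a.2,
    mem_Mon_iff.2 ⟨_, a.1.2, _, a.2.2, rfl⟩⟩ : Mon)) ⟨fun a b e => ?_, fun g => ?_⟩)).symm
  · have := mono_inj a.2.2 b.2.2 a.1.2 b.1.2 (congrArg Subtype.val e)
    exact Prod.ext (Subtype.ext this.1) (Subtype.ext this.2)
  · obtain ⟨c, hc, π, hπ, e⟩ := mem_Mon_iff.1 g.2
    exact ⟨(⟨c, hc⟩, ⟨π, hπ⟩), Subtype.ext e.symm⟩

theorem cent_pair (z s : G) : centralizer ({z, s} : Set G) = centralizer {s} ⊓ centralizer {z} := by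
  ext x
  simp only [mem_inf, mem_centralizer_iff, Set.mem_insert_iff, Set.mem_singleton_iff, forall_eq_or_imp,
    forall_eq, and_comm]

theorem mem_cent_zpowers {b x : G} : x ∈ centralizer ((zpowers b : Subgroup G) : Set G) ↔ Commute x b := by
  rw [mem_cent_subgroup_iff]
  exact ⟨fun h => h b (mem_zpowers b), by rintro h _ ⟨k, rfl⟩; exact h.zpow_right k⟩

/-- the group generated by `x` and `-1` -/
def InK (x h : Co0) : Prop := ∃ n : ℕ, h = x ^ n ∨ h = x ^ n * ng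

theorem ng_pow_odd {p : ℕ} (hp : Odd p) : ng ^ p = ng := by
  obtain ⟨k, rfl⟩ := hp
  rw [pow_succ, pow_mul, pow_two, ng_mul_ng, one_pow, one_mul]

theorem comm_of_pm {x k : Co0} {p : ℕ} (hp : Odd p) (hx : x ^ p = 1)
    (h : k * x * k⁻¹ * x⁻¹ = 1 ∨ k * x * k⁻¹ * x⁻¹ = ng) : Commute k x := by
  rcases h with h | h
  · exact conj_eq_iff_commute.1 (mul_inv_eq_one.1 h)
  · exfalso
    have h1 : (k * x * k⁻¹) ^ p = 1 := by rw [conj_pow, hx]; group
    rw [mul_inv_eq_iff_eq_mul.1 h, (show Commute ng x from (ng_comm x).symm).mul_pow, hx, mul_one,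
      ng_pow_odd hp] at h1
    exact ng_ne_one h1

/-- coordinates on an invariant part of the lattice modulo two -/
structure Crd (H : Subgroup Co0) (P : Vec → Prop) (N : ℕ) (crd : Vec → ℕ) (cmb : ℕ → Vec) : Prop where
  mem : ∀ a, cmb a ∈ Λ
  fix : ∀ a, P (cmb a)
  lt : ∀ v, crd v < N
  crd_cmb : ∀ a < N, crd (cmb a) = a
  cong : ∀ v ∈ Λ, P v → Cong v (cmb (crd v))
  crd_cong : ∀ v w, w ∈ Λ → Cong v w → crd v = crd w
  inv : ∀ h ∈ H, ∀ v ∈ Λ, P v → P (act h v)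

/-- the classes fixed by `x` -/
def FixC (x : Co0) (v : Vec) : Prop := Cong (act x v) v

/-- the classes of type four -/
def T4 (v : Vec) : Prop := ∃ w, Cong w v ∧ sqNorm w = 64

theorem three_central {L X : Type*} [Group L] [Finite L] [Group X] (θ : L →* X) (hθ : Function.Surjective θ)
    (hk : IsPGroup 2 θ.ker) {y : L} (hy : orderOf y = 3) (h27 : (Nat.card L).factorization 3 = 3) :
    (∃ P : Sylow 3 L, zpowers y ≤ (center (P : Subgroup L)).map (P : Subgroup L).subtype) ↔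
      27 ∣ Nat.card (centralizer ({θ y} : Set X)) := by
  constructor
  · rintro ⟨P, hP⟩
    obtain ⟨w, hw, e⟩ := hP (mem_zpowers y)
    have h1 : (P : Subgroup L).map θ ≤ centralizer {θ y} := by
      rintro _ ⟨a, ha, rfl⟩
      refine mem_cent_iff.2 (Commute.map ?_ θ)
      rw [← e]
      exact congrArg Subtype.val (Subgroup.mem_center_iff.1 hw ⟨a, ha⟩)
    refine dvd_trans ?_ (card_dvd_of_le h1)
    have h2 := card_eq_ker_mul_map θ (P : Subgroup L)
    have h3 : θ.ker ⊓ (P : Subgroup L) = ⊥ :=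
      disjoint_iff.1 (IsPGroup.disjoint_of_ne 2 3 (by norm_num) _ _ hk P.isPGroup')
    rw [h3, card_bot, one_mul, P.card_eq_multiplicity, h27] at h2
    rw [h2]
    norm_num
  · intro h
    have h1 : centralizer {θ y} ≤ (centralizer ({y} : Set L)).map θ := by
      intro x hx
      obtain ⟨d, rfl⟩ := hθ x
      obtain ⟨n, hn⟩ := IsPGroup.iff_card.1 hk
      haveI := hk.isNilpotent
      obtain ⟨r, hr, h2⟩ := CA.FG.coprime_cent_coset (A := zpowers y) (R := θ.ker) (x := d)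
        (by rw [normalizer_eq_top]; exact le_top)
        (by rw [hn, Nat.card_zpowers, hy]; exact (by norm_num : Nat.Coprime 2 3).pow_left n)
        (Or.inl inferInstance) (by
          rintro _ ⟨k, rfl⟩
          have := ((mem_cent_iff.1 hx).zpow_right k).symm.eq
          simp only [MonoidHom.mem_ker, map_mul, map_inv, map_zpow, this]
          group)
      exact ⟨d * r, mem_cent_iff.2 (mem_cent_zpowers.1 h2), by rw [map_mul, hr, mul_one]⟩
    set C := centralizer ({y} : Set L)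
    have h2 : 27 ∣ Nat.card C := by
      haveI : Finite X := Finite.of_surjective θ hθ
      exact (h.trans (card_dvd_of_le h1)).trans (card_map_dvd _ _)
    have hyC : y ∈ C := mem_cent_iff.2 (Commute.refl y)
    have h3 : IsPGroup 3 (zpowers (⟨y, hyC⟩ : C)) :=
      IsPGroup.of_card (n := 1) (by rw [Nat.card_zpowers, Subgroup.orderOf_mk, hy]; rfl)
    obtain ⟨P0, hP0⟩ := h3.exists_le_sylow
    have h4 : Nat.card ((P0 : Subgroup C).map C.subtype) = 3 ^ (Nat.card L).factorization 3 := by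
      rw [card_map_of_injective C.subtype_injective, P0.card_eq_multiplicity]
      congr 1
      refine le_antisymm ((Nat.factorization_le_iff_dvd Nat.card_pos.ne' Nat.card_pos.ne').2
        (card_subgroup_dvd_card C) 3) ?_
      rw [h27]
      exact (Nat.prime_three.pow_dvd_iff_le_factorization Nat.card_pos.ne').1 h2
    refine ⟨Sylow.ofCard _ h4, zpowers_le.2 ⟨⟨y, _, hP0 (mem_zpowers _), rfl⟩, Subgroup.mem_center_iff.2 ?_, rfl⟩⟩
    rintro ⟨_, a, ha, rfl⟩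
    exact Subtype.ext (mem_cent_iff.1 a.2)

namespace MS

variable [Finite G] {z : G} {Q : Subgroup (centralizer ({z} : Set G))} [Q.Normal]
  {φ : Co0 →* centralizer ({z} : Set G) ⧸ Q} {L : G → Vec → Prop}

theorem card_cent_pair (M : MS z Q φ L) {s : G} (hs : L s (e8 none)) :
    Nat.card (centralizer ({z, s} : Set G)) = 2 ^ 35 * 244823040 := by
  obtain ⟨s1, sz⟩ := M.ne_of_norm hs (by rw [sqNorm_e8]; norm_num) (by rw [sqNorm_e8])
  obtain ⟨a, ha, hat⟩ := M.le.exists_not_commute (M.memQ hs) s1 sz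
  have h3 := M.le.card_eq_two_mul le_rfl (M.memQ hs) ha fun e => hat e.symm
  have h1 := card_img (Q := Q) (centralizer ({s} : Set G))
  have h2 := M.card_map (Sg_le_Mon ng_mem_Sg)
  rw [M.img_cent hs, ← cent_pair] at h1
  rw [card_Mon] at h2
  rw [M.card] at h3
  rw [← h1, show Nat.card ↥(amb Q ⊓ centralizer {s}) = 2 ^ 24 by omega,
    show Nat.card (Mon.map φ) = 2048 * 244823040 by omega]
  norm_num

theorem reconj (M : MS z Q φ L) {s b : G} (hs : L s (e8 none)) {x m : Co0} (hA : AA φ b x) (hm : m ∈ Mon) :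
    ∃ φ' L', MS z Q φ' L' ∧ L' s (e8 none) ∧ AA φ' b (m * x * m⁻¹) :=
  ⟨_, _, M.conj m⁻¹, M.cong hs (mem_Mon.1 (inv_mem hm)), hA.1, by
    rw [← hA.2]
    show φ (m⁻¹ * (m * x * m⁻¹) * m⁻¹⁻¹) = φ x
    congr 1
    group⟩

theorem normal (M : MS z Q φ L) {s b : G} (hs : L s (e8 none)) (hz : Commute b z) (hbs : Commute b s) {p : ℕ}
    (hp : p.Prime) (hodd : Odd p) (hb : orderOf b = p) :
    ∃ φ' L', MS z Q φ' L' ∧ L' s (e8 none) ∧ ∃ π ∈ M24, orderOf π = p ∧ AA φ' b (pC π) := by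
  haveI := Fact.mk hp
  obtain ⟨g, hg⟩ := M.exA hz
  have hbp : b ^ p = 1 := hb ▸ pow_orderOf_eq_one b
  have h1 : AA φ b (g ^ (p + 1)) := by simpa only [pow_succ, hbp, one_mul] using hg.pow (p + 1)
  have h2 : (g ^ (p + 1)) ^ p = 1 := by
    rw [← pow_mul, mul_comm, pow_mul]
    obtain ⟨k, hk⟩ := hodd.add_one
    rcases (M.AA_iff (hg.pow p)).1 (hbp ▸ one_mem _) with e | e <;> rw [e]
    · exact one_pow _
    · rw [hk, ← two_mul, pow_mul, pow_two, ng_mul_ng, one_pow]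
  have h3 : g ^ (p + 1) ∈ Mon := mem_Mon.2 (M.cong_of_commute hs h1 hbs)
  generalize g ^ (p + 1) = x at h1 h2 h3
  have h4 : x ≠ 1 := by
    rintro rfl
    have := eq_one_of_odd_of_two (K := zpowers b) (by rwa [Nat.card_zpowers, hb]) M.le.isPGroup (mem_zpowers b)
      ((M.AA_iff h1).2 (Or.inl rfl))
    rw [this, orderOf_one] at hb
    exact hp.one_lt.ne hb
  have h5 : orderOf x = p := orderOf_eq_prime h2 h4
  obtain ⟨c, hc, π, hπ, rfl⟩ := mem_Mon_iff.1 h3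
  have h6 : pC π ^ p = 1 := by
    obtain ⟨d, hd, e⟩ := mono_pow hc hπ p
    rw [h2, ← one_mul (1 : Co0)] at e
    nth_rewrite 1 [← eps_empty] at e
    rw [← pC_one] at e
    rw [← pHom_apply ⟨π, hπ⟩, ← map_pow, ← map_one pHom]
    exact congrArg _ (Subtype.ext (mono_inj (one_mem _) (pow_mem hπ p) empty_mem_Cs hd e).2.symm)
  have h7 : pC π ≠ 1 := fun e => by
    rw [e, mul_one] at h2 h4
    exact h4 (eq_one_of_odd_of_two (K := zpowers (eps c)) (by
      rw [Nat.card_zpowers]; exact hodd.of_dvd_nat (orderOf_dvd_of_pow_eq_one h2)) isPGroup_Sg (mem_zpowers _)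
      (mem_Sg.2 ⟨c, hc, rfl⟩))
  haveI := isPGroup_Sg.isNilpotent
  obtain ⟨m, hm, e⟩ := CA.FG.SchurZassenhaus_trans_sol (H := Sg) (K := zpowers (pC π))
    (K₁ := zpowers (eps c * pC π)) inferInstance
    (zpowers_le.2 (mem_normalizer_of_conj fun a ha => Sg_conj (pC_mem_Mon hπ) ha))
    (zpowers_le.2 (mul_mem_sup (mem_Sg.2 ⟨c, hc, rfl⟩) (mem_zpowers _)))
    (by rw [card_Sg, Nat.card_zpowers, orderOf_eq_prime h6 h7]
        exact (Nat.coprime_two_left.2 hodd).pow_left 12)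
    (by rw [Nat.card_zpowers, Nat.card_zpowers, h5, orderOf_eq_prime h6 h7])
  obtain ⟨k, hk⟩ := CA.FG.mem_conjg.1 (e ▸ mem_zpowers (eps c * pC π))
  obtain ⟨φ', L', M', hs', hA⟩ := M.reconj hs h1 (inv_mem (Sg_le_Mon hm))
  have hk' : pHom (⟨π, hπ⟩ ^ k) = m⁻¹ * (eps c * pC π) * m⁻¹⁻¹ := by rw [map_zpow, inv_inv]; exact hk
  refine ⟨φ', L', M', hs', _, (⟨π, hπ⟩ ^ k : M24).2, ?_, by rw [← hk'] at hA; exact hA⟩
  rw [Subgroup.orderOf_coe, ← orderOf_injective pHom ((injective_iff_map_eq_one _).2 fun a ha =>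
    Subtype.ext (eq_one_of_pC_mem_Sg a.2 ((show pC a = 1 from ha) ▸ one_mem _))), hk', CA.FG.orderOf_conj, h5]

theorem reconj' (M : MS z Q φ L) {s b : G} (hs : L s (e8 none)) {π k : Equiv.Perm Pt} (hπ : π ∈ M24)
    (hk : k ∈ M24) (hA : AA φ b (pC π)) :
    ∃ φ' L', MS z Q φ' L' ∧ L' s (e8 none) ∧ AA φ' b (pC (k * π * k⁻¹)) := by
  rw [pC_mul (mul_mem hk hπ) (inv_mem hk), pC_mul hk hπ, pC_inv hk]
  exact M.reconj hs hA (pC_mem_Mon hk)

theorem sec (M : MS z Q φ L) {s b : G} (hs : L s (e8 none)) (hz : Commute b z) (hbs : Commute b s)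
    (hb : Odd (orderOf b)) : Sec (amb Q) z (zpowers b) := by
  obtain ⟨h1, h2⟩ := (M.isConj_iff (M.memQ hs)).2 ⟨_, hs, sqNorm_e8 _⟩
  obtain ⟨g, rfl⟩ := _root_.isConj_iff.1 h1
  exact ⟨M.le, M.eight_lt, by rwa [Nat.card_zpowers], mem_cent_zpowers.2 hz.symm,
    zpowers_le.2 (mem_cent_zpowers.2 (Commute.refl b)), g, ⟨M.memQ hs, mem_cent_zpowers.2 hbs.symm⟩, h2⟩

theorem fix_iff (M : MS z Q φ L) {b r : G} {x : Co0} (hA : AA φ b x) (hb : Odd (orderOf b)) {v : Vec}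
    (h : L r v) : Commute r b ↔ FixC x v :=
  ⟨fun e => M.cong_of_commute h hA e.symm, fun e => (M.le.commute_of_odd hb (pow_orderOf_eq_one b) hA.comm
    (M.eq_of_cong h (M.act hA h) e.symm)).symm⟩

theorem card_L (M : MS z Q φ L) {H : Subgroup Co0} {P : Vec → Prop} {N : ℕ} {crd : Vec → ℕ} {cmb : ℕ → Vec}
    (C : Crd H P N crd cmb) (A : Fin N → Prop) :
    Nat.card {r : G | ∃ a : Fin N, A a ∧ L r (cmb a)} = 2 * Nat.card {a // A a} := by
  choose ξ hξ using fun a : Fin N => M.exX (C.mem a)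
  have hL : ∀ a (e : Bool), L (ξ a * cond e z 1) (cmb a) := fun a e => by
    cases e
    · simpa using hξ a
    · exact M.L_mul_z (hξ a)
  rw [mul_comm, ← Nat.card_eq_fintype_card.trans Fintype.card_bool, ← Nat.card_prod]
  refine (Nat.card_congr (Equiv.ofBijective (fun a : {a // A a} × Bool =>
    (⟨ξ a.1 * cond a.2 z 1, a.1, a.1.2, hL _ _⟩ : {r : G | ∃ a : Fin N, A a ∧ L r (cmb a)}))
    ⟨?_, ?_⟩)).symm
  · rintro ⟨⟨a, ha⟩, e⟩ ⟨⟨a', ha'⟩, e'⟩ h
    have h1 : ξ a * cond e z 1 = ξ a' * cond e' z 1 := congrArg Subtype.val h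
    have h2 := C.crd_cong _ _ (C.mem _) (M.cong_of_L (hL a e) (h1 ▸ hL a' e'))
    rw [C.crd_cmb _ a.2, C.crd_cmb _ a'.2] at h2
    obtain rfl : a = a' := Fin.ext h2
    have h3 := mul_left_cancel h1
    cases e <;> cases e'
    exacts [rfl, absurd h3.symm M.le.z_ne, absurd h3 M.le.z_ne, rfl]
  · rintro ⟨r, a, ha, h⟩
    rcases M.eq_of_cong (hξ a) h (Cong.refl _) with e | e
    · exact ⟨(⟨a, ha⟩, false), Subtype.ext (by simpa using e.symm)⟩
    · exact ⟨(⟨a, ha⟩, true), Subtype.ext e.symm⟩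

theorem card_R (M : MS z Q φ L) {b : G} {x : Co0} (hA : AA φ b x) (hb : Odd (orderOf b)) {H : Subgroup Co0}
    {N : ℕ} {crd : Vec → ℕ} {cmb : ℕ → Vec} (C : Crd H (FixC x) N crd cmb) :
    Nat.card ↥(amb Q ⊓ centralizer ((zpowers b : Subgroup G) : Set G)) = 2 * N := by
  have := M.card_L C fun _ => True
  rw [Nat.card_congr (Equiv.subtypeUnivEquiv fun _ => trivial), Nat.card_eq_fintype_card (α := Fin N),
    Fintype.card_fin] at this
  rw [← this]
  refine Nat.card_congr (Equiv.subtypeEquivRight fun r => ⟨fun h => ?_, ?_⟩)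
  · obtain ⟨v, hv⟩ := M.exV h.1
    exact ⟨⟨_, C.lt v⟩, trivial, M.cong hv
      (C.cong v (M.memL hv) ((M.fix_iff hA hb hv).1 (mem_cent_zpowers.1 h.2))).symm⟩
  · rintro ⟨a, -, h⟩
    exact ⟨M.memQ h, mem_cent_zpowers.2 ((M.fix_iff hA hb h).2 (C.fix a))⟩

theorem card_R_conj (M : MS z Q φ L) {b : G} {x : Co0} (hA : AA φ b x) (hb : Odd (orderOf b))
    {H : Subgroup Co0} {N : ℕ} {crd : Vec → ℕ} {cmb : ℕ → Vec} (C : Crd H (FixC x) N crd cmb) :
    Nat.card {r : G | r ∈ amb Q ⊓ centralizer ((zpowers b : Subgroup G) : Set G) ∧ IsConj z r} =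
      2 * Nat.card {a : Fin N // T4 (cmb a)} + 1 := by
  rw [← M.card_L C, Nat.card_coe_set_eq, Nat.card_coe_set_eq, ← Set.ncard_insert_of_notMem (a := z)]
  · congr 1
    ext r
    constructor
    · rintro ⟨h, hc⟩
      by_cases e : r = z
      · exact Or.inl e
      obtain ⟨v, hv, h4⟩ := (M.isConj_iff h.1).1 ⟨hc, e⟩
      have := C.cong v (M.memL hv) ((M.fix_iff hA hb hv).1 (mem_cent_zpowers.1 h.2))
      exact Or.inr ⟨⟨_, C.lt v⟩, ⟨v, this, h4⟩, M.cong hv this.symm⟩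
    · rintro (rfl | ⟨a, ⟨w, h1, h2⟩, h⟩)
      · exact ⟨⟨M.le.z_mem, mem_cent_zpowers.2 hA.comm.symm⟩, IsConj.refl _⟩
      · exact ⟨⟨M.memQ h, mem_cent_zpowers.2 ((M.fix_iff hA hb h).2 (C.fix a))⟩,
          ((M.isConj_iff (M.memQ h)).2 ⟨w, M.cong h h1, h2⟩).1⟩
  · rintro ⟨a, ⟨w, h1, h2⟩, h⟩
    exact ((M.isConj_iff (M.memQ h)).2 ⟨w, M.cong h h1, h2⟩).2 rfl

theorem inK_iff (M : MS z Q φ L) {b d : G} {x k : Co0} (hA : AA φ b x) (hd : AA φ d k) :
    InK x k ↔ ∃ q ∈ amb Q, ∃ b' ∈ zpowers b, d = q * b' := by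
  constructor
  · rintro ⟨n, h⟩
    refine ⟨d * (b ^ n)⁻¹, (M.AA_iff (hd.mul (hA.pow n).inv)).2 (h.imp (fun e => ?_) fun e => ?_), b ^ n,
      npow_mem_zpowers b n, by group⟩
    · rw [e, mul_inv_cancel]
    · rw [e, ng_comm, mul_inv_cancel_right]
  · rintro ⟨q, hq, b', hb', rfl⟩
    obtain ⟨n, rfl⟩ := (mem_powers_iff_mem_zpowers.2 hb' :)
    have := (M.AA_iff (hd.mul (hA.pow n).inv)).1 (by simpa using hq)
    exact ⟨n, this.imp mul_inv_eq_one.1 fun e => by rw [mul_inv_eq_iff_eq_mul.1 e, ng_comm]⟩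

theorem exA_cent (M : MS z Q φ L) {b d : G} {x : Co0} (hA : AA φ b x) {p : ℕ} (hp : Odd p) (hx : x ^ p = 1)
    (hz : Commute d z) (hb : Commute d b) : ∃ k ∈ centralizer ({x} : Set Co0), AA φ d k := by
  obtain ⟨k, hk⟩ := M.exA hz
  refine ⟨k, mem_cent_iff.2 (comm_of_pm hp hx ((M.AA_iff (((hk.mul hA).mul hk.inv).mul hA.inv)).1 ?_)), hk⟩
  rw [hb.eq, mul_inv_cancel_right, mul_inv_cancel]
  exact one_mem _

theorem sect (M : MS z Q φ L) {b : G} (S : Sec (amb Q) z (zpowers b))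
    [((zpowers b).subgroupOf (centralizer ((zpowers b : Subgroup G) : Set G))).Normal] {x : Co0} (hA : AA φ b x)
    {p : ℕ} (hp : Odd p) (hx : x ^ p = 1) {Y : Type*} [Group Y] (f : centralizer ({x} : Set Co0) →* Y)
    (hf : Function.Surjective f) (hk : ∀ h, f h = 1 ↔ InK x h)
    (hfa : ∀ h ∈ centralizer ({x} : Set Co0), (∀ v ∈ Λ, FixC x v → FixC h v) → InK x h) :
    LE (((amb Q).subgroupOf _).map (sP (zpowers b))) (sP (zpowers b) ⟨z, S.zC⟩) ∧
      ∃ F : centralizer ({sP (zpowers b) ⟨z, S.zC⟩} : Set _) →* Y, Function.Surjective F ∧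
        F.ker = (((amb Q).subgroupOf _).map (sP (zpowers b))).subgroupOf _ := by
  have hb : Odd (orderOf b) := Nat.card_zpowers b ▸ S.odd
  refine ⟨S.le' fun d hd h => ?_, ?_⟩
  · obtain ⟨k, hk1, hk2⟩ := M.exA_cent hA hp hx (h z ⟨M.le.z_mem, S.zC⟩) (mem_cent_zpowers.1 hd)
    refine (M.inK_iff hA hk2).1 (hfa k hk1 fun v hv h1 => ?_)
    obtain ⟨r, hr⟩ := M.exX hv
    exact M.cong_of_commute hr hk2 (h r ⟨M.memQ hr, mem_cent_zpowers.2 ((M.fix_iff hA hb hr).2 h1)⟩)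
  · obtain ⟨F, h1, h2, -⟩ := S.exists_hom (fun d y => ∃ k : centralizer ({x} : Set Co0), AA φ d k ∧ f k = y)
      (by
        rintro d y d' y' ⟨k, h1, rfl⟩ ⟨k', h2, rfl⟩
        exact ⟨k * k', h1.mul h2, map_mul _ _ _⟩)
      (by
        rintro d y ⟨k, h1, rfl⟩
        exact ⟨k⁻¹, h1.inv, map_inv _ _⟩)
      (fun d hd hz => by
        obtain ⟨k, hk1, hk2⟩ := M.exA_cent hA hp hx hz (mem_cent_zpowers.1 hd)
        exact ⟨_, ⟨k, hk1⟩, hk2, rfl⟩)
      (fun y => by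
        obtain ⟨k, rfl⟩ := hf y
        obtain ⟨d, hd⟩ := exists_AA φ k
        obtain ⟨q, hq, h⟩ := S.exists_cent (d := d) (by
          intro b' hb'
          obtain ⟨n, rfl⟩ := (mem_powers_iff_mem_zpowers.2 hb' :)
          refine (M.AA_iff (hd.inv.mul (((hA.pow n).mul hd).mul (hA.pow n).inv))).2 (Or.inl ?_)
          rw [← ((mem_cent_iff.1 k.2).pow_right n).eq]
          group)
        have h3 : AA φ (d * q) k := by simpa using hd.mul (AA_of_mem hq)
        exact ⟨d * q, h, h3.comm, k, h3, rfl⟩)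
      (by
        rintro d y ⟨k, h1, rfl⟩
        rw [hk, M.inK_iff hA h1])
    exact ⟨F, h1, h2⟩

theorem exists_perm_hom (M : MS z Q φ L) {s : G} (hs : L s (e8 none)) :
    ∃ θ : centralizer ({z, s} : Set G) →* M24, Function.Surjective θ ∧ IsPGroup 2 θ.ker ∧
      ∀ d π, AA φ d.1 (pC π.1) → θ d = π := by
  obtain ⟨s1, sz⟩ := M.ne_of_norm hs (by rw [sqNorm_e8]; norm_num) (by rw [sqNorm_e8])
  have hm : ∀ {d : G}, d ∈ centralizer ({z, s} : Set G) ↔ Commute d s ∧ Commute d z := by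
    intro d
    rw [cent_pair, mem_inf, mem_cent_iff, mem_cent_iff]
  obtain ⟨θ, hθ⟩ := exists_hom_of_rel (fun (d : centralizer ({z, s} : Set G)) (π : M24) =>
      ∃ a ∈ Sg, AA φ d.1 (a * pC π))
    (by
      rintro d y d' y' ⟨a, ha, h⟩ ⟨a', ha', h'⟩
      refine ⟨a * (pC y * a' * (pC y)⁻¹), mul_mem ha (Sg_conj (pC_mem_Mon y.2) ha'), ?_⟩
      refine (h.mul h').of_eq (congrArg φ ?_)
      rw [coe_mul, pC_mul y.2 y'.2]
      group)
    (by
      rintro d y ⟨a, ha, h⟩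
      refine ⟨(pC y)⁻¹ * a⁻¹ * (pC y)⁻¹⁻¹, Sg_conj (inv_mem (pC_mem_Mon y.2)) (inv_mem ha), ?_⟩
      refine h.inv.of_eq (congrArg φ ?_)
      rw [coe_inv, pC_inv y.2]
      group)
    (fun d => by
      obtain ⟨k, hk⟩ := M.exA (hm.1 d.2).2
      obtain ⟨c, hc, π, hπ, rfl⟩ := mem_Mon_iff.1 (mem_Mon.2 (M.cong_of_commute hs hk (hm.1 d.2).1))
      exact ⟨⟨π, hπ⟩, _, mem_Sg.2 ⟨c, hc, rfl⟩, hk⟩)
    (by
      rintro y ⟨a, ha, h⟩
      refine Subtype.ext (eq_one_of_pC_mem_Sg y.2 ((mul_mem_cancel_left ha).1 ?_))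
      rcases (M.AA_iff h).1 (one_mem _) with e | e <;> rw [e]
      exacts [one_mem _, ng_mem_Sg])
  have hsurj : Function.Surjective θ := fun π => by
    obtain ⟨a, ha, e⟩ := M.exists_lift hs hs s1 sz (mem_Mon.1 (pC_mem_Mon π.2))
    exact ⟨⟨a, hm.2 ⟨conj_eq_iff_commute.1 e, ha.comm⟩⟩, (hθ _ _).2 ⟨1, one_mem _, by rwa [one_mul]⟩⟩
  refine ⟨θ, hsurj, IsPGroup.of_card (n := 35) ?_, fun d π h => (hθ _ _).2 ⟨1, one_mem _, by rwa [one_mul]⟩⟩
  have h1 := θ.ker.card_mul_index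
  rw [index_ker, MonoidHom.range_eq_top.2 hsurj, card_top, card_M24, M.card_cent_pair hs] at h1
  omega

end MS

end

end CA.M24

theorem CA.M24.realizeEqnsMonster4 : True := by
  have := @CA.M24.InK.eq_1
  have := @CA.M24.InK.eq_def
  have := @CA.M24.InK.congr_simp
  have := @CA.M24.FixC.eq_1
  have := @CA.M24.FixC.eq_def
  have := @CA.M24.FixC.congr_simp
  have := @CA.M24.T4.eq_1
  have := @CA.M24.T4.eq_def
  have := @CA.M24.T4.congr_simp
  trivial
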