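import Cfsg.Agent.M24.Misc
import Cfsg.Agent.M24.Words
import Cfsg.Prelude.Def_Spor_Mathieu

/-! Generation of the point stabilizer by triples of elements of prime order. -/

set_option autoImplicit false
set_option maxRecDepth 100000

namespace CA.M24.Ree

open Cfsg Equiv Subgroup Module
open scoped Pointwise

noncomputable section

section scott
variable {α : Type*} [Fintype α]

/-- `f ↦ f - f ∘ g` -/
def A (g : Perm α) : (α → ℚ) →ₗ[ℚ] (α → ℚ) := LinearMap.id - LinearMap.funLeft ℚ ℚ g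

theorem A_apply (g : Perm α) (f : α → ℚ) (x : α) : A g f x = f x - f (g x) := rfl

theorem rank_A (g : Perm α) :
    finrank ℚ (LinearMap.range (A g)) + Nat.card (MulAction.orbitRel.Quotient (zpowers g) α) ≤ Fintype.card α := by
  classical
  have h := LinearMap.finrank_range_add_finrank_ker (A g)
  rw [finrank_fintype_fun_eq_card] at h
  let π : α → MulAction.orbitRel.Quotient (zpowers g) α := Quotient.mk _
  let L := LinearMap.funLeft ℚ ℚ π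
  have hL : Function.Injective L := LinearMap.funLeft_injective_of_surjective _ _ _ Quotient.mk_surjective
  have h1 : LinearMap.range L ≤ LinearMap.ker (A g) := by
    rintro _ ⟨f, rfl⟩
    ext x
    rw [A_apply]
    exact sub_eq_zero.2 (congrArg f (Quotient.sound (s := MulAction.orbitRel (zpowers g) α)
      (show g x ∈ MulAction.orbit (zpowers g) x from ⟨⟨g, mem_zpowers g⟩, rfl⟩)).symm)
  have := Fintype.ofFinite (MulAction.orbitRel.Quotient (zpowers g) α)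
  have h2 := Submodule.finrank_mono h1
  rw [LinearMap.finrank_range_of_inj hL, finrank_fintype_fun_eq_card, ← Nat.card_eq_fintype_card] at h2
  omega

/-- Ree's inequality for a group with at most two orbits -/
theorem scott {x y z : Perm α} (h : x * y * z = 1) (a b : α)
    (ht : ∀ p, p = a ∨ ∃ g ∈ closure ({x, y} : Set (Perm α)), g b = p) :
    2 * Fintype.card α ≤ finrank ℚ (LinearMap.range (A x)) + finrank ℚ (LinearMap.range (A y)) +
      finrank ℚ (LinearMap.range (A z)) + 4 := by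
  classical
  let β : (α → ℚ) →ₗ[ℚ] LinearMap.range (A x) × LinearMap.range (A y) × LinearMap.range (A z) :=
    (A x).rangeRestrict.prod ((A y).rangeRestrict.prod (A z).rangeRestrict)
  let δ : (LinearMap.range (A x) × LinearMap.range (A y) × LinearMap.range (A z)) →ₗ[ℚ] (α → ℚ) :=
    ((LinearMap.funLeft ℚ ℚ ⇑(y * z)).comp (Submodule.subtype _)).coprod
      (((LinearMap.funLeft ℚ ℚ z).comp (Submodule.subtype _)).coprod (Submodule.subtype _))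
  have h1 : LinearMap.range β ≤ LinearMap.ker δ := by
    rintro _ ⟨f, rfl⟩
    ext p
    have : x (y (z p)) = p := congrArg (fun g : Perm α => g p) h
    show A x f (y (z p)) + (A y f (z p) + A z f p) = 0
    simp only [A_apply, this]; ring
  have h2 : finrank ℚ (LinearMap.ker β) ≤ 2 := by
    let e : LinearMap.ker β →ₗ[ℚ] ℚ × ℚ :=
      ((LinearMap.proj a).prod (LinearMap.proj b)).comp (Submodule.subtype _)
    have := LinearMap.finrank_le_finrank_of_injective (f := e) ((injective_iff_map_eq_zero e).2 fun f hf => by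
      have hx : ∀ p, f.1 (x p) = f.1 p := fun p =>
        (sub_eq_zero.1 (congrFun (congrArg (fun v => v.1.1) f.2) p)).symm
      have hy : ∀ p, f.1 (y p) = f.1 p := fun p =>
        (sub_eq_zero.1 (congrFun (congrArg (fun v => v.2.1.1) f.2) p)).symm
      have hg : ∀ g ∈ closure ({x, y} : Set (Perm α)), ∀ p, f.1 (g p) = f.1 p := fun g hg => by
        induction hg using closure_induction with
        | mem g hg => rcases hg with rfl | rfl <;> assumption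
        | one => exact fun _ => rfl
        | mul g k _ _ i1 i2 => exact fun p => (i1 _).trans (i2 p)
        | inv g _ i => exact fun p => by rw [← i]; simp
      ext p
      rcases ht p with rfl | ⟨g, hg', rfl⟩
      · exact congrArg Prod.fst hf
      · exact (hg g hg' b).trans (congrArg Prod.snd hf))
    simpa using this
  have h3 : Fintype.card α ≤ finrank ℚ (LinearMap.range δ) + 2 := by
    let S : Subgroup (Perm α) :=
      { carrier := {g | ∀ f, A g f ∈ LinearMap.range δ}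
        one_mem' := fun f => by rw [show A 1 f = 0 from funext fun p => sub_self _]; exact zero_mem _
        mul_mem' := fun {g k} hg hk f => by
          rw [show A (g * k) f = A k f + (A g f - A k (A g f)) from funext fun p => by simp [A_apply]]
          exact add_mem (hk f) (sub_mem (hg f) (hk _))
        inv_mem' := fun {g} hg f => by
          rw [show A g⁻¹ f = -A g (f ∘ ⇑g⁻¹) from funext fun p => by simp [A_apply]]
          exact neg_mem (hg _) }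
    have hz : z ∈ S := fun f => ⟨(0, 0, ⟨_, f, rfl⟩), by simp [δ]⟩
    have hy : y ∈ S := fun f => by
      rw [show A y f = A z (A y f) + δ (0, ⟨_, f, rfl⟩, 0) from funext fun p => by simp [A_apply, δ]]
      exact add_mem (hz _) ⟨_, rfl⟩
    have hx : x ∈ S := by
      rw [show x = (y * z)⁻¹ from eq_inv_of_mul_eq_one_left (by rw [← mul_assoc, h])]
      exact inv_mem (mul_mem hy hz)
    have hS : closure ({x, y} : Set (Perm α)) ≤ S := by
      rw [closure_le]; rintro _ (rfl | rfl) <;> assumption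
    let W := Submodule.span ℚ (({Pi.single a 1, Pi.single b 1} : Finset (α → ℚ)) : Set (α → ℚ))
    have hW : finrank ℚ W ≤ 2 := (finrank_span_finset_le_card _).trans Finset.card_le_two
    have ht' : LinearMap.range δ ⊔ W = ⊤ := by
      rw [eq_top_iff, ← (Pi.basisFun ℚ α).span_eq, Submodule.span_le]
      rintro _ ⟨p, rfl⟩
      rw [Pi.basisFun_apply]
      rcases ht p with rfl | ⟨g, hg, rfl⟩
      · exact Submodule.mem_sup_right (Submodule.subset_span (by simp))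
      · rw [show (Pi.single (g b) 1 : α → ℚ) = A g (Pi.single (g b) 1) + Pi.single b 1 from funext fun p => by
          simp [A_apply, Pi.single_apply]]
        exact Submodule.add_mem_sup (hS hg _) (Submodule.subset_span (by simp))
    have := Submodule.finrank_add_le_finrank_add_finrank (LinearMap.range δ) W
    rw [ht', finrank_top, finrank_fintype_fun_eq_card] at this
    omega
  have h4 := LinearMap.finrank_range_add_finrank_ker β
  have h5 := LinearMap.finrank_range_add_finrank_ker δ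
  have h6 := Submodule.finrank_mono h1
  rw [finrank_fintype_fun_eq_card] at h4
  rw [finrank_prod, finrank_prod] at h5
  omega

theorem burn {g : Perm α} {p f : ℕ} (hp : p.Prime) (ho : orderOf g = p)
    (hf : ∀ k ∈ zpowers g, orderOf k = p → Nat.card (MulAction.fixedBy α k) = f) :
    Nat.card (MulAction.orbitRel.Quotient (zpowers g) α) * p = Fintype.card α + (p - 1) * f := by
  classical
  have := Fact.mk hp
  have := Fintype.ofFinite (MulAction.orbitRel.Quotient (zpowers g) α)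
  have := Fintype.ofFinite (zpowers g)
  have h := MulAction.sum_card_fixedBy_eq_card_orbits_mul_card_group (zpowers g) α
  have hc : Fintype.card (zpowers g) = p := by rw [← Nat.card_eq_fintype_card, Nat.card_zpowers, ho]
  rw [← Nat.card_eq_fintype_card (α := MulAction.orbitRel.Quotient _ _), hc, ← Finset.add_sum_erase _ _ (Finset.mem_univ 1),
    Finset.sum_congr rfl (g := fun _ => f) fun k hk => by
      rw [← Nat.card_eq_fintype_card]
      refine hf k k.2 ?_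
      rw [Subgroup.orderOf_coe]
      exact ((Nat.dvd_prime hp).1 (hc ▸ orderOf_dvd_card)).resolve_left (by simpa using hk)] at h
  rw [← h, Finset.sum_const, Finset.card_erase_of_mem (Finset.mem_univ _), Finset.card_univ, hc]
  simp

end scott

def R (g : Spor.M23) : ℕ := finrank ℚ (LinearMap.range (A g.1))

theorem rk {g : Perm Pt} (hg : g ∈ Spor.M23) {p f : ℕ} (hp : p.Prime) (ho : orderOf g = p)
    (hf : ∀ k ∈ M24, orderOf k = p → (fixS k).card ≠ 0 → (fixS k).card = f) :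
    finrank ℚ (LinearMap.range (A g)) * p + 24 + (p - 1) * f ≤ 24 * p := by
  have h1 := burn (f := f) hp ho fun k hk h => by
    have hk' := (zpowers_le.2 hg) hk
    rw [← hf k hk'.1 h (Finset.card_ne_zero.2 ⟨none, mem_fixS.2 hk'.2⟩), ← Fintype.card_coe, ← Nat.card_eq_fintype_card]
    exact Nat.card_congr (Equiv.subtypeEquivRight fun x => mem_fixS.symm)
  have h2 := Nat.mul_le_mul_right p (rank_A g)
  rw [add_mul, h1, card_Pt] at h2
  omega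

theorem rk2 (g : Spor.M23) (ho : orderOf g = 2) : R g ≤ 8 := by
  have : R g * 2 + 24 + (2 - 1) * 8 ≤ 24 * 2 := rk (f := 8) g.2 (by norm_num) ((Subgroup.orderOf_coe g).trans ho) fun k hk h h0 =>
    (mem_octads.1 ((card_fix_two hk h).resolve_right h0)).2
  omega

theorem rk3 (g : Spor.M23) (ho : orderOf g = 3) : R g ≤ 12 := by
  have : R g * 3 + 24 + (3 - 1) * 6 ≤ 24 * 3 := rk (f := 6) g.2 (by norm_num) ((Subgroup.orderOf_coe g).trans ho) fun k hk h h0 => (card_fix_three hk h).resolve_right h0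
  omega

theorem rk5 (g : Spor.M23) (ho : orderOf g = 5) : R g ≤ 16 := by
  have : R g * 5 + 24 + (5 - 1) * 4 ≤ 24 * 5 := rk (f := 4) g.2 (by norm_num) ((Subgroup.orderOf_coe g).trans ho) fun k hk h _ => card_fix_five hk h
  omega

theorem rk7 (g : Spor.M23) (ho : orderOf g = 7) : R g ≤ 18 := by
  have : R g * 7 + 24 + (7 - 1) * 3 ≤ 24 * 7 := rk (f := 3) g.2 (by norm_num) ((Subgroup.orderOf_coe g).trans ho) fun k hk h _ => card_fix_seven hk h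
  omega

theorem rk0 (g' : Spor.M23) : R g' ≤ 22 := by
  obtain ⟨g, hg⟩ : ∃ g : Perm Pt, g = g'.1 := ⟨_, rfl⟩
  have h : R g' + Nat.card (MulAction.orbitRel.Quotient (zpowers g) Pt) ≤ Fintype.card Pt := by
    subst hg; exact rank_A _
  replace hg : g ∈ Spor.M23 := hg ▸ g'.2
  have : Nontrivial (MulAction.orbitRel.Quotient (zpowers g) Pt) := ⟨Quotient.mk _ (some 0), Quotient.mk _ none, fun e => by
    obtain ⟨k, hk⟩ := MulAction.orbitRel_apply.1 (Quotient.exact e)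
    exact absurd (hk.symm.trans ((zpowers_le.2 hg) k.2).2) (by simp)⟩
  have := Finite.one_lt_card (α := MulAction.orbitRel.Quotient (zpowers g) Pt)
  rw [card_Pt] at h
  omega

theorem ree {x y z : Spor.M23} (h : x * y * z = 1) (hc : closure {x, y} = ⊤) :
    44 ≤ R x + R y + R z := by
  have : _ ≤ R x + R y + R z + 4 := scott (x := x.1) (y := y.1) (z := z.1) (congrArg Subtype.val h) (pt 23) (pt 0) fun p => by
    refine or_iff_not_imp_left.2 fun hp => ?_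
    obtain ⟨w, hw, h1, h2⟩ := exists_two (show pt 23 ≠ pt 0 by decide) (Ne.symm hp)
    refine ⟨w, ?_, h2⟩
    have := mem_map_of_mem Spor.M23.subtype (hc ▸ mem_top (⟨w, hw, h1⟩ : Spor.M23))
    rwa [MonoidHom.map_closure, Set.image_pair] at this
  rw [card_Pt] at this
  omega

theorem card_M23 : Nat.card Spor.M23 = 10200960 := by
  refine card_stab_of_orb card_M24 (m := 24) ?_ (by norm_num) (by norm_num)
  have : orb M24 (none : Pt) = Set.univ := by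
    refine Set.eq_univ_of_forall fun y => ?_
    obtain ⟨w, hw, -, h⟩ := w1_spec y
    exact ⟨w⁻¹, inv_mem hw, by change w⁻¹ (pt 23) = y; rw [← h]; simp⟩
  rw [this, Set.ncard_univ, Nat.card_eq_fintype_card, card_Pt]

abbrev Row := (ℕ × ℕ × ℕ) × ℕ × ℕ × List (ℕ × ℕ × List (List ℕ))

def ordB (c p : ℕ) : Bool := band (Nat.beq (ppow c p) pone) (bne' c pone)

def tri (t : Row) : Bool :=
  band (band (band (chk t.2.1) (Nat.beq (dig t.2.1 23) 23)) (band (chk t.2.2.1) (Nat.beq (dig t.2.2.1 23) 23)))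
    (band (band (ordB t.2.1 t.1.1) (band (ordB t.2.2.1 t.1.2.1) (ordB (pmul t.2.1 t.2.2.1) t.1.2.2)))
      (Nat.ble 10200960 (chainLB t.2.2.2 [t.2.1, t.2.2.1])))

theorem tri_spec {t : Row} (h : tri t = true) (hp : t.1.1.Prime) (hq : t.1.2.1.Prime) (hr : t.1.2.2.Prime) :
    ∃ x y z : Spor.M23, orderOf x = t.1.1 ∧ orderOf y = t.1.2.1 ∧ orderOf z = t.1.2.2 ∧ x * y * z = 1 ∧
      closure {x, y} = ⊤ := by
  simp only [tri, band_eq_true, beq_iff, ble_iff] at h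
  obtain ⟨⟨⟨a1, a2⟩, b1, b2⟩, ⟨o1, o2, o3⟩, hc⟩ := h
  obtain ⟨x, hx, ex⟩ := inM_of_chk a1
  obtain ⟨y, hy, ey⟩ := inM_of_chk b1
  rw [← ex] at a2 o1 o3 hc
  rw [← ey] at b2 o2 o3 hc
  rw [pmul_code] at o3
  have f : ∀ g : Perm Pt, dig (code g) 23 = 23 → g none = none := fun g h => (apply_pt g (i := 23) (by norm_num)).trans (by rw [h]; rfl)
  have o : ∀ (g : Perm Pt) (p : ℕ), p.Prime → ordB (code g) p = true → orderOf g = p := fun g p hp h => by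
    have := Fact.mk hp
    rw [← perm_code g]
    exact orderOf_perm (by rw [perm_code]) h
  let X : Spor.M23 := ⟨x, hx, f x a2⟩
  let Y : Spor.M23 := ⟨y, hy, f y b2⟩
  refine ⟨X, Y, (X * Y)⁻¹, (Subgroup.orderOf_coe X).symm.trans (o _ _ hp o1), (Subgroup.orderOf_coe Y).symm.trans (o _ _ hq o2),
    (orderOf_inv _).trans ((Subgroup.orderOf_coe (X * Y)).symm.trans (o _ _ hr o3)), mul_inv_cancel _, ?_⟩
  have : Finite Spor.M23 := inferInstance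
  refine eq_top_of_le_card _ ?_
  rw [card_M23, ← card_map_of_injective Spor.M23.subtype_injective]
  refine hc.trans (chainLB_le _ fun c hc => ?_)
  rcases List.mem_pair.1 hc with rfl | rfl
  · exact inH_code.2 ⟨X, subset_closure (by simp), rfl⟩
  · exact inH_code.2 ⟨Y, subset_closure (by simp), rfl⟩

def LL : List Row := [
  ((2, 5, 11), nat_lit 965342734269048962261125790969441320, nat_lit 962369343958084087197506312538129542, [(nat_lit 9, nat_lit 6, [[0, 1, 1, 1, 1, 0, 1, 0], [0, 1, 1, 0, 1, 0, 1, 1]]), (nat_lit 0, nat_lit 5, [[0, 1, 1, 0, 1], [1, 1, 1, 1, 1, 0, 1, 1], [1, 0, 1, 1, 1, 1, 1, 1]]), (nat_lit 1, nat_lit 3, [[1, 2, 1], [0, 1, 0, 1], [0, 0, 0, 0, 1, 0]]), (nat_lit 10, nat_lit 2, [[1, 0, 1], [0, 2, 2, 1, 2], [2, 1, 0, 1, 2, 1]]), (nat_lit 3, nat_lit 2, [[2, 0, 2]]), (nat_lit 2, nat_lit 2, [])]),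
  ((2, 5, 23), nat_lit 984804087453471150764320500765171075, nat_lit 971592492571860248021559864469129504, [(nat_lit 5, nat_lit 5, [[1, 1, 1, 0, 1, 1], [1, 1, 0, 1, 1, 1], [1, 0, 1, 1, 1, 1]]), (nat_lit 1, nat_lit 3, [[2, 1, 2, 0, 2, 1, 2], [1, 0, 1, 0, 2, 1, 0, 1]]), (nat_lit 2, nat_lit 4, [[1, 0, 1, 1, 1], [0, 1, 1, 1, 0, 1, 0], [0, 1, 0, 1, 1, 1, 0, 1, 0, 1]]), (nat_lit 0, nat_lit 3, [[1], [0, 2, 0, 1, 2], [2, 2, 0, 2, 0]]), (nat_lit 4, nat_lit 2, [[0, 1]]), (nat_lit 3, nat_lit 2, [])]),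
  ((2, 7, 7), nat_lit 975727407205111171400172582656678944, nat_lit 984679558104145057048014964430152045, [(nat_lit 2, nat_lit 6, [[1, 1, 1, 1, 0, 1, 1], [1, 0, 1, 0, 1, 1, 0, 1]]), (nat_lit 13, nat_lit 3, [[1, 0, 0, 1], [0, 0, 0, 0, 1]]), (nat_lit 14, nat_lit 3, [[0, 1, 0, 1, 1], [0, 1, 1, 1, 0]]), (nat_lit 9, nat_lit 3, [[1, 0, 1, 0], [1, 1, 0, 1, 1, 1], [0, 1, 1, 0, 1, 0, 1]]), (nat_lit 1, nat_lit 2, [[2, 0, 1]]), (nat_lit 0, nat_lit 2, [])]),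
  ((2, 7, 11), nat_lit 979625279097789593400428576970493120, nat_lit 956011473505956247565921585370023587, [(nat_lit 16, nat_lit 5, [[1, 1, 1, 1, 0, 1, 1], [1, 1, 1, 0, 1, 1, 0, 1]]), (nat_lit 0, nat_lit 4, [[0, 1, 0, 0, 0], [1, 0, 0, 1, 1]]), (nat_lit 2, nat_lit 4, [[0, 0, 1, 0], [1, 1, 0, 0, 0]]), (nat_lit 1, nat_lit 3, [[0, 1, 0, 0, 1], [0, 1, 1, 0, 0], [1, 0, 1, 0, 0]]), (nat_lit 3, nat_lit 2, [[2, 0, 1]]), (nat_lit 4, nat_lit 2, [])]),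
  ((2, 7, 23), nat_lit 984250316816060392807025461877131786, nat_lit 960099629921633853731296094667054255, [(nat_lit 0, nat_lit 5, [[1, 1, 0, 1], [0, 1, 0, 1, 0]]), (nat_lit 1, nat_lit 4, [[0, 0, 1, 0, 0, 0, 0], [0, 1, 0, 1, 0, 0, 1]]), (nat_lit 16, nat_lit 3, [[1, 0, 0, 1, 1], [1, 0, 1, 0, 1]]), (nat_lit 7, nat_lit 3, [[1, 0, 0], [0, 1, 0, 1, 1, 0, 1], [0, 1, 1, 0, 0, 1, 0]]), (nat_lit 2, nat_lit 2, [[0, 2, 1]]), (nat_lit 3, nat_lit 2, [])]),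
  ((2, 11, 11), nat_lit 972361039729901978089030791347688672, nat_lit 957999431792344453835547140496216611, [(nat_lit 7, nat_lit 5, [[1, 1, 1, 0, 1], [1, 1, 0, 1, 0, 1]]), (nat_lit 1, nat_lit 4, [[0, 1, 0, 0], [1, 0, 1, 0, 1]]), (nat_lit 10, nat_lit 3, [[1, 0, 0, 0], [1, 1, 0, 1, 1]]), (nat_lit 0, nat_lit 4, [[1, 0, 0, 0], [0, 1, 1, 0, 0], [0, 1, 0, 0, 1, 0]]), (nat_lit 4, nat_lit 2, [[0, 2]]), (nat_lit 2, nat_lit 2, [])]),
  ((2, 11, 23), nat_lit 973131601676657100828621894395726336, nat_lit 977573700266517381636714613313255557, [(nat_lit 3, nat_lit 5, [[0], [1, 1, 1, 1, 0, 1], [1, 1, 1, 0, 1, 0, 1]]), (nat_lit 0, nat_lit 3, [[1], [0]]), (nat_lit 12, nat_lit 5, [[0, 0, 1, 0, 0, 1, 0, 1], [1, 0, 0, 0, 1, 0, 1, 0]]), (nat_lit 1, nat_lit 4, [[1, 1], [0, 1, 0, 0, 0], [1, 0, 0, 0, 1, 1, 0, 0]]), (nat_lit 2, nat_lit 2, [[1, 0]]), (nat_lit 4, nat_lit 2, [])]),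
  ((2, 23, 23), nat_lit 983560537069927662343735563535909962, nat_lit 982040070052256507971084225927482852, [(nat_lit 0, nat_lit 5, [[1, 0, 1, 1, 1, 0, 1], [1, 1, 1, 0, 1, 1, 0]]), (nat_lit 1, nat_lit 4, [[0, 0, 1, 0], [0, 1, 1, 0]]), (nat_lit 2, nat_lit 4, [[0, 0, 1, 1, 1, 0], [0, 0, 1, 1, 1, 1]]), (nat_lit 4, nat_lit 3, [[0, 1, 0, 1], [0, 0, 1, 0, 0, 0], [0, 1, 1, 0, 1, 1, 0]]), (nat_lit 6, nat_lit 2, [[1]]), (nat_lit 3, nat_lit 2, [])]),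
  ((3, 3, 11), nat_lit 974452665056649776812488712791695530, nat_lit 984113503181398629267726768423405605, [(nat_lit 4, nat_lit 5, [[0, 0, 1, 1, 0, 1, 0], [1, 0, 0, 1, 0, 1, 1]]), (nat_lit 10, nat_lit 4, [[0, 1, 0, 0, 1, 1], [0, 0, 1, 1, 0, 1, 0]]), (nat_lit 0, nat_lit 4, [[0, 1, 1, 0, 0], [1, 1, 0, 0, 1, 0]]), (nat_lit 2, nat_lit 3, [[0, 0, 0, 1], [1, 0, 1, 1, 0], [0, 0, 1, 0, 1, 1]]), (nat_lit 1, nat_lit 2, [[2, 1, 0]]), (nat_lit 3, nat_lit 2, [])]),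
  ((3, 3, 23), nat_lit 967943188029080107834484106609215840, nat_lit 959297892865974478834023040706649761, [(nat_lit 5, nat_lit 4, [[0, 1, 0, 0, 1, 1], [0, 0, 1, 1, 0, 1, 0]]), (nat_lit 15, nat_lit 4, [[1, 0, 1, 0], [0, 1, 0, 0, 0]]), (nat_lit 0, nat_lit 4, [[1, 0], [0, 1, 1, 0, 1], [0, 0, 1, 1, 1, 0, 1, 1]]), (nat_lit 9, nat_lit 2, [[1, 2, 0], [1, 0, 2, 2], [0, 1, 1, 0]]), (nat_lit 1, nat_lit 2, [[0, 2, 0]]), (nat_lit 2, nat_lit 2, [])]),
  ((3, 5, 5), nat_lit 979620781133445490418996993199186537, nat_lit 963190915828146235525095681764566147, [(nat_lit 1, nat_lit 5, [[1, 1, 1, 0, 1, 1], [1, 0, 1, 1, 1, 0, 1]]), (nat_lit 0, nat_lit 4, [[0], [1, 1, 0, 1, 1, 0, 1]]), (nat_lit 3, nat_lit 4, [[0, 1, 1, 1, 0], [0, 1, 0, 1, 1, 1]]), (nat_lit 7, nat_lit 3, [[0, 0, 1], [0, 1, 1, 0, 0], [1, 1, 0, 0, 1, 0]]), (nat_lit 4, nat_lit 2, [[2, 2, 1, 0]]), (nat_lit 2, nat_lit 2, [])]),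
  ((3, 5, 7), nat_lit 955692510992476760790529436798174258, nat_lit 976606397162704828089484737795700896, [(nat_lit 10, nat_lit 5, [[1, 0, 0, 1], [0, 0, 1, 0, 0]]), (nat_lit 1, nat_lit 4, [[0, 1, 1, 1], [1, 1, 0, 1]]), (nat_lit 2, nat_lit 4, [[1], [0, 0, 1, 1, 0, 1, 0]]), (nat_lit 3, nat_lit 3, [[0, 0, 0, 1, 1, 0], [1, 0, 0, 1, 0, 1], [0, 0, 1, 1, 0, 0, 1]]), (nat_lit 0, nat_lit 2, [[1, 0]]), (nat_lit 4, nat_lit 2, [])]),
  ((3, 5, 11), nat_lit 984039531963016378343075391010745748, nat_lit 976402386672599994747041564424517248, [(nat_lit 16, nat_lit 4, [[1, 1, 0, 1, 1, 1], [1, 0, 1, 1, 1, 1]]), (nat_lit 6, nat_lit 4, [[1, 0, 0, 1, 1, 0, 1], [1, 1, 0, 1, 0, 1, 0]]), (nat_lit 0, nat_lit 4, [[0, 0, 1, 0], [1, 0, 0, 0, 0, 1]]), (nat_lit 1, nat_lit 4, [[1, 0, 1, 1, 1], [1, 0, 0, 1, 0, 1], [0, 1, 0, 0, 1, 1, 0]]), (nat_lit 2, nat_lit 2, [[1, 2]]), (nat_lit 3, nat_lit 2, [])]),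
  ((3, 5, 23), nat_lit 984807735647689301256887189989919304, nat_lit 970316315617933756983474245503074004, [(nat_lit 14, nat_lit 4, [[1, 1, 0, 1, 0], [0, 1, 1, 0, 0, 1]]), (nat_lit 0, nat_lit 4, [[1, 0, 1, 0, 0], [0, 0, 0, 1, 1, 1]]), (nat_lit 11, nat_lit 3, [[0, 0, 1, 0], [0, 1, 0, 0, 1, 1]]), (nat_lit 2, nat_lit 3, [[1, 0, 1, 0, 1], [1, 0, 0, 1, 1], [0, 0, 1, 1, 1, 0]]), (nat_lit 1, nat_lit 2, [[0, 1, 2]]), (nat_lit 3, nat_lit 2, [])]),
  ((3, 7, 7), nat_lit 975716632015317838373813564338473133, nat_lit 967360076891479097993464569164012244, [(nat_lit 10, nat_lit 4, [[0, 1, 0], [1, 0, 1, 1, 0]]), (nat_lit 0, nat_lit 4, [[0, 1, 0, 1, 0], [1, 0, 1, 0, 0]]), (nat_lit 1, nat_lit 4, [[0, 1, 0], [1, 0, 0, 1, 1, 1]]), (nat_lit 14, nat_lit 3, [[0, 0, 0, 1], [1, 0, 1, 1, 0], [0, 0, 1, 0, 1, 1]]), (nat_lit 2, nat_lit 2, [[2, 1, 0]]), (nat_lit 3, nat_lit 2, [])]),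
  ((3, 7, 11), nat_lit 972689460145671691483973360944679588, nat_lit 970411256928184735623518457858401376, [(nat_lit 3, nat_lit 5, [[0, 1, 1, 1, 0], [1, 0, 1, 1, 0, 0]]), (nat_lit 0, nat_lit 4, [[0, 0, 1, 1, 0], [0, 1, 0, 0, 0, 0]]), (nat_lit 2, nat_lit 4, [[0, 1, 0, 1], [0, 0, 1, 0], [1, 1, 1, 0]]), (nat_lit 21, nat_lit 2, [[0, 2, 1, 1], [0, 1, 2, 0], [2, 0, 2, 2, 0]]), (nat_lit 1, nat_lit 2, [[0, 2, 0, 1]]), (nat_lit 4, nat_lit 2, [])]),
  ((3, 7, 23), nat_lit 974407586180848934180799038980472391, nat_lit 964494698378698366799004799448193129, [(nat_lit 4, nat_lit 4, [[1, 0, 1, 0, 1], [1, 0, 1, 1, 1, 1]]), (nat_lit 9, nat_lit 3, [[0, 0, 1, 0, 1], [1, 1, 0, 0, 1]]), (nat_lit 19, nat_lit 3, [[1, 1, 1, 0, 1], [1, 0, 0, 1, 0]]), (nat_lit 0, nat_lit 4, [[0, 0, 1, 0, 0], [0, 1, 0, 0, 1, 1], [1, 0, 0, 1, 1, 0]]), (nat_lit 1, nat_lit 2, [[1, 0, 2, 0]]), (nat_lit 2, nat_lit 2, [])]),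
  ((3, 11, 11), nat_lit 967881159902252320419604033944848645, nat_lit 975138326621446853473802066119209618, [(nat_lit 0, nat_lit 4, [[0, 1, 0, 1, 1], [0, 0, 1, 0, 0]]), (nat_lit 11, nat_lit 3, [[0, 0, 0], [1, 0, 1, 1, 1]]), (nat_lit 17, nat_lit 4, [[1, 1, 0, 1, 0], [1, 0, 1, 1, 1, 0, 1]]), (nat_lit 2, nat_lit 4, [[0, 1], [1, 0, 0, 0, 1, 0], [0, 0, 0, 0, 1, 1, 0]]), (nat_lit 4, nat_lit 2, [[0, 1, 1]]), (nat_lit 1, nat_lit 2, [])]),
  ((3, 11, 23), nat_lit 977962779744936116436554972970131970, nat_lit 959894761459355328913373623451245170, [(nat_lit 3, nat_lit 5, [[1, 1, 1, 0, 0], [1, 0, 0, 1, 0, 1]]), (nat_lit 8, nat_lit 4, [[0, 1, 1, 0], [1, 0, 1, 1, 1]]), (nat_lit 0, nat_lit 4, [[1, 1, 0, 0], [1, 0, 0, 1], [1, 1, 0, 1, 1, 0]]), (nat_lit 1, nat_lit 3, [[2, 0], [2, 1, 2], [1, 1, 2, 1]]), (nat_lit 2, nat_lit 2, [[1]]), (nat_lit 4, nat_lit 2, [])]),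
  ((3, 23, 23), nat_lit 976771858341426784786568042604824611, nat_lit 972888962229568836778473959014469269, [(nat_lit 0, nat_lit 4, [[1, 1, 0, 0, 1], [1, 1, 0, 1, 1]]), (nat_lit 1, nat_lit 3, [[1, 0, 0], [0, 1, 0, 0, 1]]), (nat_lit 3, nat_lit 4, [[1, 0, 0], [0, 1, 1, 0]]), (nat_lit 4, nat_lit 3, [[0, 0, 1, 0, 1], [1, 1, 0, 1, 0, 0], [0, 0, 0, 1, 0, 0, 0, 1]]), (nat_lit 2, nat_lit 2, [[0, 1, 2]]), (nat_lit 5, nat_lit 2, [])]),
  ((5, 5, 5), nat_lit 965327461258932859105609209243961352, nat_lit 969028388296852070004139665283700771, [(nat_lit 2, nat_lit 4, [[0], [1, 0, 0, 0, 0, 1]]), (nat_lit 7, nat_lit 4, [[1, 1, 1, 1], [0, 1, 0, 0, 0]]), (nat_lit 9, nat_lit 4, [[0, 1, 1, 1, 0, 1], [1, 1, 0, 1, 1, 1, 1]]), (nat_lit 8, nat_lit 3, [[0, 1, 0], [0, 0, 0, 1, 1, 0, 0], [0, 1, 1, 0, 1, 1, 1]]), (nat_lit 0, nat_lit 2, [[0, 2, 2, 1]]), (nat_lit 1, nat_lit 2, [])]),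
  ((5, 5, 7), nat_lit 962667433068370075539241969209975317, nat_lit 975285073208685016566137441563089315, [(nat_lit 12, nat_lit 4, [[0, 0, 1, 1, 1], [0, 1, 0, 0, 1, 0]]), (nat_lit 4, nat_lit 4, [[1, 1, 0, 0, 0, 0], [0, 0, 0, 1, 0, 0, 1]]), (nat_lit 0, nat_lit 4, [[1, 0, 0], [1, 0, 1, 1], [0, 0, 0, 0, 1, 0, 1]]), (nat_lit 1, nat_lit 3, [[0, 0, 1], [1, 2, 0, 2], [2, 0, 0, 2]]), (nat_lit 2, nat_lit 2, [[0, 2, 0]]), (nat_lit 3, nat_lit 2, [])]),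
  ((5, 5, 11), nat_lit 980784201631751029746236758245528879, nat_lit 984003184587468935301374484061173196, [(nat_lit 2, nat_lit 4, [[1, 1, 0, 0, 1], [1, 1, 0, 1, 0]]), (nat_lit 1, nat_lit 4, [[0, 1, 0, 1, 1, 0], [0, 0, 1, 1, 0, 0, 1]]), (nat_lit 3, nat_lit 4, [[0, 1, 0, 1, 1], [1, 0, 1, 0, 0, 1]]), (nat_lit 14, nat_lit 3, [[1, 1, 0], [1, 0, 0, 1, 1], [0, 0, 1, 1, 0, 1]]), (nat_lit 6, nat_lit 2, [[0]]), (nat_lit 0, nat_lit 2, [])]),
  ((5, 5, 23), nat_lit 984814937403115516784500441988208043, nat_lit 971059879364721155454561536138297601, [(nat_lit 1, nat_lit 4, [[1, 1, 1, 0], [1, 0, 0, 1]]), (nat_lit 0, nat_lit 4, [[0, 1, 0, 0, 1], [0, 1, 1, 0, 1]]), (nat_lit 2, nat_lit 4, [[0, 1, 1], [1, 1, 1, 0]]), (nat_lit 4, nat_lit 4, [[0], [1, 0, 1, 1, 0, 1, 1, 1], [1, 1, 0, 1, 1, 1, 0, 1]]), (nat_lit 3, nat_lit 2, [[0]]), (nat_lit 5, nat_lit 2, [])]),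
  ((5, 7, 7), nat_lit 967933771311455948638542331238353479, nat_lit 980861846502115701192982168699296172, [(nat_lit 3, nat_lit 4, [[0, 0, 1], [0, 1, 1, 1, 0]]), (nat_lit 0, nat_lit 4, [[0, 1, 1, 0], [1, 0, 0, 1, 1]]), (nat_lit 1, nat_lit 4, [[0, 1, 0, 0, 1], [1, 0, 0, 0, 0, 1]]), (nat_lit 6, nat_lit 3, [[0, 0, 0, 1], [1, 0, 1, 1, 0], [0, 0, 1, 0, 1, 1]]), (nat_lit 2, nat_lit 2, [[1, 0, 2]]), (nat_lit 4, nat_lit 2, [])]),
  ((5, 7, 11), nat_lit 978308665260748606610978120128891463, nat_lit 958288303112855362542736161864994251, [(nat_lit 5, nat_lit 4, [[0, 0, 1, 1, 0], [0, 1, 0, 1, 1, 0]]), (nat_lit 3, nat_lit 4, [[0, 0, 0, 1, 1], [0, 1, 0, 0, 0, 0]]), (nat_lit 12, nat_lit 3, [[1, 0], [0, 0, 0, 1, 1]]), (nat_lit 0, nat_lit 4, [[0, 0, 0, 1], [0, 1, 1, 1, 0], [0, 1, 1, 0, 1, 1]]), (nat_lit 1, nat_lit 2, [[2, 0, 1]]), (nat_lit 2, nat_lit 2, [])]),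
  ((5, 7, 23), nat_lit 981680871199752648346793562881824928, nat_lit 980717082909306636498915213932795183, [(nat_lit 1, nat_lit 4, [[1, 0, 1], [0, 1, 1, 1, 1, 1]]), (nat_lit 0, nat_lit 4, [[1, 1, 1, 1], [0, 0, 1, 0, 1]]), (nat_lit 9, nat_lit 4, [[0, 1, 0, 1, 1], [1, 1, 0, 1, 1, 0, 1]]), (nat_lit 10, nat_lit 3, [[1, 0, 0], [0, 1, 0, 1, 1, 0, 1], [0, 1, 1, 0, 0, 1, 0]]), (nat_lit 3, nat_lit 2, [[2, 1]]), (nat_lit 2, nat_lit 2, [])]),
  ((5, 11, 11), nat_lit 965085761089440419615650951395035168, nat_lit 980511827092307671316000733768462994, [(nat_lit 2, nat_lit 4, [[1, 0, 1, 1, 0], [1, 1, 1, 1, 0]]), (nat_lit 4, nat_lit 3, [[0, 0, 1, 1], [1, 1, 0, 1, 1, 0]]), (nat_lit 5, nat_lit 4, [[0, 0, 0, 1, 0, 1, 0], [0, 0, 0, 0, 0, 1, 0, 0], [0, 0, 1, 0, 0, 0, 0, 0]]), (nat_lit 0, nat_lit 3, [[0, 2], [1, 2, 1, 2, 1], [0, 0, 2, 0, 0]]), (nat_lit 1, nat_lit 2, [[0, 1, 2]]), (nat_lit 3, nat_lit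 2, [])]),
  ((5, 11, 23), nat_lit 984770900506680893780165308986821298, nat_lit 979414076465197761897972161298749683, [(nat_lit 10, nat_lit 4, [[1, 1, 1, 0, 1], [1, 1, 0, 1, 0]]), (nat_lit 0, nat_lit 4, [[1, 1, 0, 0], [1, 0, 0, 1, 1]]), (nat_lit 2, nat_lit 3, [[1, 0, 1, 0], [0, 0, 1, 0, 1], [1, 1, 1, 1, 0]]), (nat_lit 20, nat_lit 2, [[0, 2, 0], [0, 1, 1, 0], [2, 0, 2, 2]]), (nat_lit 3, nat_lit 2, [[2, 1, 0]]), (nat_lit 1, nat_lit 2, [])]),
  ((5, 23, 23), nat_lit 978881300824205770028859019158885652, nat_lit 979092765814336751979775575547577974, [(nat_lit 2, nat_lit 4, [[1, 0, 1], [0, 0, 0, 1, 0]]), (nat_lit 13, nat_lit 3, [[1, 0, 0, 0], [0, 0, 0, 1, 0, 1]]), (nat_lit 0, nat_lit 4, [[0, 1, 0, 0], [1, 0, 0, 0, 1, 0], [1, 1, 1, 0, 0, 1]]), (nat_lit 1, nat_lit 2, [[1, 0, 0], [1, 2, 0, 1], [1, 1, 0, 2]]), (nat_lit 3, nat_lit 2, [[1, 0, 1]]), (nat_lit 4, nat_lit 2, [])]),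
  ((7, 7, 7), nat_lit 981603363378205113214527503505771617, nat_lit 964653089095752068539858848955337376, [(nat_lit 1, nat_lit 4, [[1, 0, 1, 0, 1], [1, 0, 0, 0, 0, 0]]), (nat_lit 0, nat_lit 4, [[1, 0, 0], [0, 1, 1, 0]]), (nat_lit 7, nat_lit 3, [[1, 0, 0, 0, 1, 1], [1, 0, 0, 1, 1, 0], [1, 1, 0, 0, 1, 0]]), (nat_lit 3, nat_lit 2, [[2, 1, 2, 0], [2, 1, 0, 2], [0, 0, 1, 0, 1]]), (nat_lit 2, nat_lit 2, [[0, 1]]), (nat_lit 4, nat_lit 2, [])]),
  ((7, 7, 11), nat_lit 973972184053752010003762392208593281, nat_lit 958239298969702335925535734615879137, [(nat_lit 0, nat_lit 4, [[0, 1, 1, 0], [0, 1, 1, 1]]), (nat_lit 10, nat_lit 3, [[0, 0, 1, 1], [0, 1, 0, 0, 0]]), (nat_lit 1, nat_lit 4, [[1, 0, 1, 0, 0, 1], [1, 1, 0, 1, 1, 1]]), (nat_lit 3, nat_lit 3, [[0, 0, 0, 1], [1, 0, 1, 1, 0], [0, 0, 1, 0, 1, 1]]), (nat_lit 2, nat_lit 2, [[0]]), (nat_lit 4, nat_lit 2, [])]),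
  ((7, 7, 23), nat_lit 972462261045681274970359517138003573, nat_lit 958679172557973881067036366098274720, [(nat_lit 4, nat_lit 4, [[1, 0, 0, 1], [0, 1, 1, 1, 0]]), (nat_lit 7, nat_lit 3, [[0, 0, 1, 0, 0], [1, 1, 0, 0, 1]]), (nat_lit 0, nat_lit 4, [[0, 0, 1, 0], [0, 1, 1, 0, 0]]), (nat_lit 3, nat_lit 3, [[1, 0, 1, 1, 0], [0, 0, 1, 0, 1], [0, 1, 0, 0, 0, 1]]), (nat_lit 1, nat_lit 2, [[1]]), (nat_lit 2, nat_lit 2, [])]),
  ((7, 11, 11), nat_lit 981436970354611997766925562475614771, nat_lit 982078535283149102184318692543084623, [(nat_lit 0, nat_lit 4, [[1, 1, 0], [1, 0, 0, 0]]), (nat_lit 1, nat_lit 4, [[0, 1], [1, 1]]), (nat_lit 3, nat_lit 5, [[0, 1, 0], [1, 0, 1, 0, 0, 0, 0, 0]]), (nat_lit 4, nat_lit 3, [[1, 0, 1], [0, 1, 1, 1, 0, 0], [1, 1, 1, 0, 0, 1, 1]]), (nat_lit 2, nat_lit 2, [[0]]), (nat_lit 5, nat_lit 2, [])]),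
  ((7, 11, 23), nat_lit 955891482506623839345348148328076975, nat_lit 972871453577478791461621966377103969, [(nat_lit 0, nat_lit 4, [[1, 0, 0, 1], [1, 0, 0, 0, 0]]), (nat_lit 2, nat_lit 4, [[0, 0, 1, 1], [0, 1, 1, 1]]), (nat_lit 1, nat_lit 4, [[0, 1, 1, 0], [0, 1, 0, 0, 1]]), (nat_lit 10, nat_lit 3, [[1, 0, 1, 1, 0], [0, 1, 0, 0, 0, 0], [1, 1, 0, 1, 0, 1, 1]]), (nat_lit 3, nat_lit 2, [[0]]), (nat_lit 4, nat_lit 2, [])]),
  ((7, 23, 23), nat_lit 982219196223446930102114369091407958, nat_lit 962486552502956394465665727834705140, [(nat_lit 4, nat_lit 4, [[0, 0, 0, 1], [1, 1, 1, 0]]), (nat_lit 8, nat_lit 3, [[0, 0], [0, 1, 1, 1, 1]]), (nat_lit 6, nat_lit 4, [[1, 0, 1, 1], [0, 0, 1, 0, 0, 1, 0]]), (nat_lit 1, nat_lit 3, [[1, 0, 1, 0, 1], [1, 0, 0, 1, 1], [0, 0, 1, 1, 1, 0]]), (nat_lit 0, nat_lit 2, [[1, 2, 0]]), (nat_lit 2, nat_lit 2, [])]),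
  ((11, 11, 11), nat_lit 959978021795402319412404612949425601, nat_lit 960639858708321692277318925124982351, [(nat_lit 6, nat_lit 4, [[1, 1, 0, 0, 0, 1], [1, 1, 0, 0, 0, 0]]), (nat_lit 1, nat_lit 4, [[0, 0, 0, 1, 0], [0, 1, 1, 0, 0]]), (nat_lit 0, nat_lit 4, [[1, 1, 1, 0, 1], [0, 1, 1, 0, 0, 1]]), (nat_lit 3, nat_lit 4, [[0, 1, 0, 1], [1, 1, 0, 0], [0, 1, 1, 0, 1, 0]]), (nat_lit 2, nat_lit 2, [[0, 1]]), (nat_lit 4, nat_lit 2, [])]),
  ((11, 11, 23), nat_lit 959850470379167077204991876387211530, nat_lit 979247629583881647445578700974929608, [(nat_lit 0, nat_lit 4, [[0, 1, 1, 1], [1, 0, 1, 1, 0]]), (nat_lit 2, nat_lit 4, [[1, 0, 0], [0, 0, 1, 1, 1]]), (nat_lit 9, nat_lit 3, [[1, 0, 0], [0, 0, 1, 1, 1]]), (nat_lit 14, nat_lit 3, [[1, 0, 1, 0], [1, 1, 0, 1, 1, 1], [0, 1, 1, 0, 1, 0, 1]]), (nat_lit 1, nat_lit 2, [[0, 1, 2]]), (nat_lit 3, nat_lit 2, [])]),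
  ((11, 23, 23), nat_lit 974272481656748823521315293908715828, nat_lit 966399076769751078931261884484404868, [(nat_lit 0, nat_lit 4, [[0, 1, 0, 0, 0], [1, 1, 0, 0, 0]]), (nat_lit 11, nat_lit 3, [[0, 0, 1, 1], [1, 1, 1, 0]]), (nat_lit 3, nat_lit 4, [[1, 1], [0, 0, 1, 0], [0, 1, 0, 0, 0, 1]]), (nat_lit 1, nat_lit 2, [[2, 1, 2, 1], [2, 0, 1, 0], [2, 0, 2, 0, 1]]), (nat_lit 2, nat_lit 2, [[1, 2, 1]]), (nat_lit 4, nat_lit 2, [])]),
  ((23, 23, 23), nat_lit 959567985451487019489474605120700755, nat_lit 958814440902806441268160258023504257, [(nat_lit 0, nat_lit 4, [[0, 0, 1], [1, 1, 0]]), (nat_lit 3, nat_lit 4, [[0, 1, 0, 1], [1, 0, 0, 0]]), (nat_lit 19, nat_lit 3, [[1, 0, 0, 1, 1], [1, 0, 1, 0, 1]]), (nat_lit 4, nat_lit 3, [[1, 0, 0], [0, 1, 0, 1, 1, 0, 1], [0, 1, 1, 0, 0, 1, 0]]), (nat_lit 2, nat_lit 2, [[2, 0, 2]]), (nat_lit 1, nat_lit 2, [])])]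

theorem LL_ok : allL tri LL = true := by decide +kernel

theorem LL_cov : ∀ p ∈ [2, 3, 5, 7, 11, 23], ∀ q ∈ [2, 3, 5, 7, 11, 23], ∀ r ∈ [2, 3, 5, 7, 11, 23], p ≤ q → q ≤ r →
    ¬ (p = 2 ∧ q = 2) → ¬ ((p = 2 ∧ q = 3) ∨ (p = 2 ∧ q = 5 ∧ r = 5) ∨ (p = 2 ∧ q = 5 ∧ r = 7) ∨ (p = 3 ∧ q = 3 ∧ r ≤ 7)) →
    (p, q, r) ∈ LL.map (·.1) := by decide +kernel

theorem primes {p : ℕ} (hp : p.Prime) (h : p ∣ 10200960) : p ∈ [2, 3, 5, 7, 11, 23] := by
  rw [show 10200960 = 2 ^ 7 * (3 ^ 2 * (5 * (7 * (11 * 23)))) by norm_num] at h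
  have e : ∀ q : ℕ, q.Prime → p ∣ q → p = q := fun q hq h => (Nat.prime_dvd_prime_iff_eq hp hq).1 h
  simp only [hp.dvd_mul] at h
  rcases h with h | h | h | h | h | h
  · simp [e 2 (by norm_num) (hp.dvd_of_dvd_pow h)]
  · simp [e 3 (by norm_num) (hp.dvd_of_dvd_pow h)]
  · simp [e 5 (by norm_num) h]
  · simp [e 7 (by norm_num) h]
  · simp [e 11 (by norm_num) h]
  · simp [e 23 (by norm_num) h]

theorem main (p q r : ℕ) (hp : p.Prime) (hq : q.Prime)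
    (hr : r.Prime) (hpq : p ≤ q) (hqr : q ≤ r) (hp2 : ¬ (p = 2 ∧ q = 2))
    (hdvd : p ∣ 10200960 ∧ q ∣ 10200960 ∧ r ∣ 10200960) :
    (∃ x y z : Spor.M23, orderOf x = p ∧ orderOf y = q ∧ orderOf z = r ∧ x * y * z = 1 ∧ closure {x, y} = ⊤) ↔
      ¬ ((p = 2 ∧ q = 3) ∨ (p = 2 ∧ q = 5 ∧ r = 5) ∨ (p = 2 ∧ q = 5 ∧ r = 7) ∨ (p = 3 ∧ q = 3 ∧ r ≤ 7)) := by
  constructor
  · rintro ⟨x, y, z, hx, hy, hz, h, hc⟩ hb
    have := ree h hc
    rcases hb with ⟨rfl, rfl⟩ | ⟨rfl, rfl, rfl⟩ | ⟨rfl, rfl, rfl⟩ | ⟨rfl, rfl, h7⟩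
    · have := rk2 x hx; have := rk3 y hy; have := rk0 z; omega
    · have := rk2 x hx; have := rk5 y hy; have := rk5 z hz; omega
    · have := rk2 x hx; have := rk5 y hy; have := rk7 z hz; omega
    · have := rk3 x hx
      have := rk3 y hy
      have h' := primes hr hdvd.2.2
      simp only [List.mem_cons, List.not_mem_nil, or_false] at h'
      rcases h' with rfl | rfl | rfl | rfl | rfl | rfl
      · omega
      · have := rk3 z hz; omega
      · have := rk5 z hz; omega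
      · have := rk7 z hz; omega
      · omega
      · omega
  · intro hb
    obtain ⟨t, ht, e⟩ := List.mem_map.1 (LL_cov p (primes hp hdvd.1) q (primes hq hdvd.2.1) r (primes hr hdvd.2.2)
      hpq hqr hp2 hb)
    have := tri_spec (allL_eq_true.1 LL_ok t ht)
    rw [e] at this
    exact this hp hq hr

end

end CA.M24.Ree

theorem CA.realizeEqns_M24_Ree : True := by
  have := @CA.M24.Ree.ordB.eq_1
  have := @CA.M24.Ree.ordB.eq_def
  have := @CA.M24.Ree.ordB.congr_simp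
  have := @CA.M24.Ree.Row.eq_1
  have := @CA.M24.Ree.Row.eq_def
  have := @CA.M24.Ree.Row.congr_simp
  have := @CA.M24.Ree.A.eq_1.{0}
  have := @CA.M24.Ree.A.eq_def.{0}
  have := @CA.M24.Ree.A.congr_simp.{0}
  have := @CA.M24.Ree.tri.eq_1
  have := @CA.M24.Ree.tri.eq_def
  have := @CA.M24.Ree.tri.congr_simp
  have := @CA.M24.Ree.R.eq_1
  have := @CA.M24.Ree.R.eq_def
  have := @CA.M24.Ree.R.congr_simp
  have := @CA.M24.Ree.LL.eq_1
  have := @CA.M24.Ree.LL.eq_def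
  have := @CA.M24.Ree.LL.congr_simp
  trivial
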