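import Cfsg.Agent.M24.Monster3
import Cfsg.Agent.FG.Hall

/-! Sections `C(B)/B` of groups with a large extraspecial subgroup, `B` abelian of odd order. -/

set_option autoImplicit false

namespace CA.M24

open Cfsg Subgroup CA.Fi CA.FG.Comp

noncomputable section

universe u

variable {G : Type u} [Group G]

/-- the hypotheses for a section -/
structure Sec (Q : Subgroup G) (z : G) (B : Subgroup G) : Prop where
  le : LE Q z
  big : 8 < Nat.card Q
  odd : Odd (Nat.card B)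
  zC : z ∈ centralizer (B : Set G)
  ab : B ≤ centralizer (B : Set G)
  nwc : ∃ g : G, g * z * g⁻¹ ∈ Q ⊓ centralizer (B : Set G) ∧ g * z * g⁻¹ ≠ z

/-- the projection onto the section -/
abbrev sP (B : Subgroup G) [(B.subgroupOf (centralizer (B : Set G))).Normal] :
    centralizer (B : Set G) →* centralizer (B : Set G) ⧸ B.subgroupOf (centralizer (B : Set G)) :=
  QuotientGroup.mk' _

theorem conj_sq (a b : G) : a * b * a⁻¹ * (a * b * a⁻¹) = a * (b * b) * a⁻¹ := by group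

namespace Sec

variable {Q B : Subgroup G} {z : G} [hn : (B.subgroupOf (centralizer (B : Set G))).Normal]

theorem eq_iff (c d : centralizer (B : Set G)) : sP B c = sP B d ↔ (c : G)⁻¹ * d ∈ B := by
  rw [← inv_mul_eq_one, ← map_inv, ← map_mul]
  exact QuotientGroup.eq_one_iff _

theorem comm_B (c : centralizer (B : Set G)) {b : G} (hb : b ∈ B) : Commute (c : G) b :=
  mem_cent_subgroup_iff.1 c.2 b hb

omit hn in
theorem le_norm (S : Sec Q z B) : B ≤ normalizer (Q : Set G) := fun b hb =>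
  S.le.mem_normalizer (mem_cent_subgroup_iff.1 S.zC b hb).symm

omit hn in
theorem eq_one (S : Sec Q z B) {x : G} (h1 : x ∈ B) (h2 : x ∈ Q) : x = 1 :=
  eq_one_of_odd_of_two S.odd S.le.isPGroup h1 h2

omit hn in
theorem es [Finite G] (S : Sec Q z B) : ES (Q ⊓ centralizer (B : Set G)) z := by
  obtain ⟨g, h1, h2⟩ := S.nwc
  exact S.le.cent_odd S.le_norm S.odd ⟨_, h1, (S.le.conj g).z_ne, h2⟩

theorem inj (S : Sec Q z B) {c d : centralizer (B : Set G)} (hc : (c : G) ∈ Q) (hd : (d : G) ∈ Q)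
    (e : sP B c = sP B d) : c = d :=
  Subtype.ext (inv_mul_eq_one.1 (S.eq_one ((eq_iff c d).1 e) (mul_mem (inv_mem hc) hd)))

theorem mem_iff (S : Sec Q z B) (c : centralizer (B : Set G)) :
    sP B c ∈ (Q.subgroupOf (centralizer (B : Set G))).map (sP B) ↔ ∃ q ∈ Q, ∃ b ∈ B, (c : G) = q * b := by
  constructor
  · rintro ⟨d, hd, e⟩
    exact ⟨d, hd, _, (eq_iff _ _).1 e, by group⟩
  · rintro ⟨q, hq, b, hb, e⟩
    have hqC : q ∈ centralizer (B : Set G) := by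
      rw [← mul_inv_eq_iff_eq_mul] at e
      exact e ▸ mul_mem c.2 (inv_mem (S.ab hb))
    exact ⟨⟨q, hqC⟩, hq, (eq_iff _ _).2 (by rw [e]; simpa using hb)⟩

theorem conj_lift (S : Sec Q z B) {c x : centralizer (B : Set G)} (hx : (x : G) * x = 1)
    (h : sP B c * sP B ⟨z, S.zC⟩ * (sP B c)⁻¹ = sP B x) : (c : G) * z * (c : G)⁻¹ = x := by
  rw [← map_inv, ← map_mul, ← map_mul, eq_iff] at h
  set y : centralizer (B : Set G) := c * ⟨z, S.zC⟩ * c⁻¹ with hy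
  have h2 : (y : G) * y = 1 := by
    show (c : G) * z * (c : G)⁻¹ * (c * z * (c : G)⁻¹) = 1
    rw [conj_sq, S.le.z_sq, mul_one, mul_inv_cancel]
  have h3 := comm_B y h
  have h4 : ((y : G)⁻¹ * x) ^ 2 ^ 1 = 1 := by
    have h5 := h3.mul_pow 2
    rw [mul_inv_cancel_left, pow_two, pow_two, hx, h2, one_mul] at h5
    rw [pow_one, ← h5]
  exact inv_mul_eq_one.1 (eq_one_of_odd_of_pow S.odd h h4)

theorem lift (S : Sec Q z B) {c : centralizer (B : Set G)} (h : Commute (sP B c) (sP B ⟨z, S.zC⟩)) :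
    Commute (c : G) z :=
  conj_eq_iff_commute.1 (S.conj_lift (x := ⟨z, S.zC⟩) S.le.z_sq (conj_eq_iff_commute.2 h))

theorem map_comm {a b : centralizer (B : Set G)} (e : Commute (a : G) b) : Commute (sP B a) (sP B b) :=
  Commute.map (show Commute a b from Subtype.ext e) _

theorem es' [Finite G] (S : Sec Q z B) :
    ES ((Q.subgroupOf (centralizer (B : Set G))).map (sP B)) (sP B ⟨z, S.zC⟩) := by
  have := (S.es.subgroupOf (H := centralizer (B : Set G)) inf_le_right).map (sP B) fun x hx e =>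
    S.inj hx.1 (one_mem _) (e.trans (map_one _).symm)
  rwa [inf_subgroupOf_right] at this

theorem card_eq (S : Sec Q z B) : Nat.card ((Q.subgroupOf (centralizer (B : Set G))).map (sP B)) =
    Nat.card ↥(Q ⊓ centralizer (B : Set G)) := by
  have h1 := card_eq_ker_mul_map (sP B) (Q.subgroupOf (centralizer (B : Set G)))
  have h2 : (sP B).ker ⊓ Q.subgroupOf (centralizer (B : Set G)) = ⊥ := by
    rw [eq_bot_iff]
    exact fun x hx => S.inj hx.2 (one_mem _) (hx.1.trans (map_one _).symm)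
  rw [h2, card_bot, one_mul] at h1
  rw [h1, ← inf_subgroupOf_right]
  exact Nat.card_congr (subgroupOfEquivOfLe inf_le_right).toEquiv

theorem le' [Finite G] (S : Sec Q z B)
    (hf : ∀ d ∈ centralizer (B : Set G), (∀ r ∈ Q ⊓ centralizer (B : Set G), Commute d r) →
      ∃ q ∈ Q, ∃ b ∈ B, d = q * b) :
    LE ((Q.subgroupOf (centralizer (B : Set G))).map (sP B)) (sP B ⟨z, S.zC⟩) := by
  refine ⟨S.es', fun c hc => ?_, fun c hc x hx => ?_⟩
  · obtain ⟨c, rfl⟩ := QuotientGroup.mk'_surjective _ c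
    have hz := S.lift (hc _ S.es'.z_mem)
    refine (S.mem_iff c).2 (hf c c.2 fun r hr => ?_)
    have h1 := hc _ ⟨⟨r, hr.2⟩, hr.1, rfl⟩
    rw [← conj_eq_iff_commute, ← map_inv, ← map_mul, ← map_mul] at h1
    exact conj_eq_iff_commute.1 (congrArg Subtype.val (S.inj (S.le.norm c hz r hr.1) hr.1 h1))
  · obtain ⟨c, rfl⟩ := QuotientGroup.mk'_surjective _ c
    obtain ⟨x, hx, rfl⟩ := hx
    exact ⟨c * x * c⁻¹, S.le.norm c (S.lift hc) x hx, by rw [map_mul, map_mul, map_inv]⟩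

omit hn in
theorem conj_in [Finite G] (S : Sec Q z B) {t : G} (ht : t ∈ Q ⊓ centralizer (B : Set G)) (hc : IsConj z t) :
    ∃ c ∈ centralizer (B : Set G), c * z * c⁻¹ = t := by
  by_cases htz : t = z
  · exact ⟨1, one_mem _, by rw [htz]; group⟩
  obtain ⟨g, rfl⟩ := isConj_iff.1 hc
  have hp := S.le.pair ht.1 (S.le.mem_conj S.big ht.1) fun e => htz e.symm
  have S' : Sec _ _ B := ⟨hp.right, by rw [card_map_of_injective (MulAut.conj g).injective]; exact S.big, S.odd,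
    ht.2, S.ab, g⁻¹, by
      rw [show g⁻¹ * (g * z * g⁻¹) * g⁻¹⁻¹ = z by group]
      exact ⟨⟨hp.z_mem, S.zC⟩, hp.ne⟩⟩
  obtain ⟨s, hs, hst⟩ := S.es.exists_not_commute ht hp.right.z_ne htz
  obtain ⟨c, hc1, hcz⟩ := S'.es.exists_not_commute ⟨hp.z_mem, S.zC⟩ S.le.z_ne hp.ne
  refine ⟨s * c, mul_mem hs.2 hc1.2, ?_⟩
  rw [← (hp.conj_s hs.1 fun e => hst e.symm).2.2, ← (hp.conj_c hc1.1 fun e => hcz e.symm).2.1]
  group

theorem nwc' [Finite G] (S : Sec Q z B) : ∃ g, g * sP B ⟨z, S.zC⟩ * g⁻¹ ∈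
    (Q.subgroupOf (centralizer (B : Set G))).map (sP B) ∧ g * sP B ⟨z, S.zC⟩ * g⁻¹ ≠ sP B ⟨z, S.zC⟩ := by
  obtain ⟨g, h1, h2⟩ := S.nwc
  obtain ⟨c, hc, e⟩ := S.conj_in h1 (isConj_iff.2 ⟨g, rfl⟩)
  have h3 : ((⟨c, hc⟩ * ⟨z, S.zC⟩ * ⟨c, hc⟩⁻¹ : centralizer (B : Set G)) : G) ∈ Q :=
    (show c * z * c⁻¹ ∈ Q from e ▸ h1.1)
  refine ⟨sP B ⟨c, hc⟩, ?_⟩
  rw [← map_inv, ← map_mul, ← map_mul]
  exact ⟨mem_map_of_mem _ h3, fun e' => h2 (e.symm.trans (congrArg Subtype.val (S.inj h3 S.le.z_mem e')))⟩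

theorem card_conj [Finite G] (S : Sec Q z B) :
    Nat.card {x : centralizer ({sP B ⟨z, S.zC⟩} : Set _) | x ∈ ((Q.subgroupOf (centralizer (B : Set G))).map
      (sP B)).subgroupOf (centralizer {sP B ⟨z, S.zC⟩}) ∧ IsConj (sP B ⟨z, S.zC⟩) x.1} =
    Nat.card {x : G | x ∈ Q ⊓ centralizer (B : Set G) ∧ IsConj z x} := by
  refine (Nat.card_congr (Equiv.ofBijective (fun x => ⟨⟨sP B ⟨x.1, x.2.1.2⟩, mem_cent_iff.2
    (map_comm (S.le.z_comm _ x.2.1.1).symm)⟩, mem_map_of_mem _ x.2.1.1, by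
      obtain ⟨c, hc, e⟩ := S.conj_in x.2.1 x.2.2
      refine isConj_iff.2 ⟨sP B ⟨c, hc⟩, ?_⟩
      rw [← map_inv, ← map_mul, ← map_mul]
      exact congrArg _ (Subtype.ext e)⟩) ⟨?_, ?_⟩)).symm
  · intro x y e
    have := S.inj (c := ⟨x.1, x.2.1.2⟩) (d := ⟨y.1, y.2.1.2⟩) x.2.1.1 y.2.1.1
      (congrArg Subtype.val (congrArg Subtype.val e))
    have h3 := congrArg Subtype.val this
    exact Subtype.ext h3
  · rintro ⟨⟨w, h0⟩, ⟨x, hx, e0⟩, h⟩
    obtain rfl : sP B x = w := e0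
    obtain ⟨c, e⟩ := isConj_iff.1 h
    obtain ⟨c, rfl⟩ := QuotientGroup.mk'_surjective _ c
    have h2 : sP B (x * x) = sP B 1 := by
      rw [map_mul, map_one]
      refine (congrArg₂ (· * ·) e e).symm.trans ?_
      show _ * _ = _
      rw [conj_sq, S.es'.z_sq, mul_one, mul_inv_cancel]
    have h3 := S.conj_lift (congrArg Subtype.val (S.inj (c := x * x) (d := 1) (mul_mem hx hx) (one_mem _) h2)) e
    exact ⟨⟨x, ⟨hx, x.2⟩, isConj_iff.2 ⟨_, h3⟩⟩, rfl⟩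

theorem exists_hom (S : Sec Q z B) {Y : Type*} [Group Y] (ρ : G → Y → Prop)
    (hmul : ∀ d y d' y', ρ d y → ρ d' y' → ρ (d * d') (y * y')) (hinv : ∀ d y, ρ d y → ρ d⁻¹ y⁻¹)
    (h1 : ∀ d ∈ centralizer (B : Set G), Commute d z → ∃ y, ρ d y)
    (h2 : ∀ y, ∃ d ∈ centralizer (B : Set G), Commute d z ∧ ρ d y)
    (hk : ∀ d y, ρ d y → (y = 1 ↔ ∃ q ∈ Q, ∃ b ∈ B, d = q * b)) :
    ∃ F : centralizer ({sP B ⟨z, S.zC⟩} : Set _) →* Y, Function.Surjective F ∧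
      F.ker = ((Q.subgroupOf (centralizer (B : Set G))).map (sP B)).subgroupOf _ ∧
      ∀ d y, F d = y ↔ ∃ c, sP B c = d ∧ ρ c y := by
  have hk' : ∀ (d : centralizer ({sP B ⟨z, S.zC⟩} : Set _)) y, (∃ c, sP B c = d ∧ ρ c y) →
      (d ∈ ((Q.subgroupOf (centralizer (B : Set G))).map (sP B)).subgroupOf _ ↔ y = 1) := by
    rintro d y ⟨c, e, h⟩
    rw [mem_subgroupOf, ← e, S.mem_iff, hk _ _ h]
  obtain ⟨F, hF⟩ := exists_hom_of_rel (fun (d : centralizer ({sP B ⟨z, S.zC⟩} : Set _)) (y : Y) =>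
      ∃ c, sP B c = d ∧ ρ c y)
    (by
      rintro d y d' y' ⟨c, e1, h1⟩ ⟨c', e2, h2⟩
      exact ⟨c * c', by rw [map_mul, e1, e2]; rfl, hmul _ _ _ _ h1 h2⟩)
    (by
      rintro d y ⟨c, e1, h1⟩
      exact ⟨c⁻¹, by rw [map_inv, e1]; rfl, hinv _ _ h1⟩)
    (by
      intro d
      obtain ⟨c, hc⟩ := QuotientGroup.mk'_surjective _ d.1
      obtain ⟨y, hy⟩ := h1 c c.2 (S.lift (hc ▸ mem_cent_iff.1 d.2))
      exact ⟨y, c, hc, hy⟩)
    (fun y h => (hk' _ _ h).1 (one_mem _))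
  refine ⟨F, fun y => ?_, ?_, hF⟩
  · obtain ⟨d, hd, hz, h⟩ := h2 y
    exact ⟨⟨sP B ⟨d, hd⟩, mem_cent_iff.2 (map_comm hz)⟩, (hF _ _).2 ⟨_, rfl, h⟩⟩
  · ext d
    exact (hk' d _ ((hF d _).1 rfl)).symm

omit hn in
theorem exists_cent [Finite G] (S : Sec Q z B) {d : G} (hd : ∀ b ∈ B, d⁻¹ * (b * d * b⁻¹) ∈ Q) :
    ∃ q ∈ Q, d * q ∈ centralizer (B : Set G) := by
  obtain ⟨n, hn⟩ := IsPGroup.iff_card.1 S.le.isPGroup
  haveI := S.le.isPGroup.isNilpotent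
  exact CA.FG.coprime_cent_coset S.le_norm (by rw [hn]; exact (Nat.coprime_two_left.2 S.odd).pow_left n)
    (Or.inl inferInstance) hd

end Sec

end

end CA.M24

theorem CA.M24.realizeEqnsSect : True := by
  have := @CA.M24.sP.eq_1.{0}
  have := @CA.M24.sP.eq_def.{0}
  have := @CA.M24.sP.congr_simp.{0}
  trivial
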