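import Cfsg.Agent.M24.Misc

/-! Six-element sets of points. -/

set_option autoImplicit false
set_option maxRecDepth 100000

namespace CA.M24

open Cfsg Equiv
open scoped Pointwise symmDiff

noncomputable section

/-- enumeration of a six-set -/
def enum6 {E : Finset Pt} (hE : E.card = 6) (i : Fin 6) : Pt := ((Finset.equivFinOfCardEq hE).symm i : E)

theorem enum6_inj {E : Finset Pt} (hE : E.card = 6) : Function.Injective (enum6 hE) :=
  Subtype.val_injective.comp (Equiv.injective _)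

theorem forall_enum6 {E : Finset Pt} (hE : E.card = 6) {P : Pt → Prop} :
    (∀ p ∈ E, P p) ↔ ∀ i, P (enum6 hE i) :=
  ⟨fun h i => h _ ((Finset.equivFinOfCardEq hE).symm i).2,
    fun h p hp => by simpa [enum6] using h (Finset.equivFinOfCardEq hE ⟨p, hp⟩)⟩

theorem special_of {E : Finset Pt} {e : Fin 6 → Pt} (he : ∀ p ∈ E, ∃ i, e i = p) {k : Perm Pt}
    (hk : k ∈ M24) (h0 : k (e 0) = pt 23) (h1 : k (e 1) = pt 0) (h2 : k (e 2) = pt 1)
    (h3 : k (e 3) = pt 2) (h4 : k (e 4) = pt 3) (h5 : k (e 5) = pt 5) : ∃ o ∈ octads, E ⊆ o := by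
  refine ⟨k⁻¹ • unmask O0, smul_mem_octads (inv_mem hk) O0_mem, fun p hp => ?_⟩
  obtain ⟨i, rfl⟩ := he p hp
  rw [Finset.mem_inv_smul_finset_iff]
  change k (e i) ∈ _
  fin_cases i <;> simp only [Fin.zero_eta, Fin.mk_one, Fin.reduceFinMk, h0, h1, h2, h3, h4, h5] <;>
    decide +kernel

theorem not_special_of {E : Finset Pt} {e : Fin 6 → Pt} (he : ∀ i, e i ∈ E) {k : Perm Pt}
    (hk : k ∈ M24) (h0 : k (e 0) = pt 23) (h1 : k (e 1) = pt 0) (h2 : k (e 2) = pt 1)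
    (h3 : k (e 3) = pt 2) (h4 : k (e 4) = pt 3) (h5 : k (e 5) = pt 4) : ¬ ∃ o ∈ octads, E ⊆ o := by
  rintro ⟨o, ho, h⟩
  have hm : ∀ i, k (e i) ∈ k • o := fun i => Finset.smul_mem_smul_finset (h (he i))
  have : k • o = unmask O0 := by
    refine octad_eq_of_five (smul_mem_octads hk ho) O0_mem (s := {pt 23, pt 0, pt 1, pt 2, pt 3}) ?_
      (by decide +kernel) (by decide +kernel)
    intro x hx
    simp only [Finset.mem_insert, Finset.mem_singleton] at hx
    rcases hx with rfl | rfl | rfl | rfl | rfl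
    exacts [h0 ▸ hm 0, h1 ▸ hm 1, h2 ▸ hm 2, h3 ▸ hm 3, h4 ▸ hm 4]
  have h6 := hm 5
  rw [this, h5] at h6
  revert h6
  decide +kernel

theorem six_normal {E : Finset Pt} (hE : E.card = 6) {e : Fin 6 → Pt} (he : Function.Injective e)
    (he' : ∀ i, e i ∈ E) : ∃ k ∈ M24, ∃ n, n < 24 ∧ k (e 0) = pt 23 ∧
    k (e 1) = pt 0 ∧ k (e 2) = pt 1 ∧ k (e 3) = pt 2 ∧ k (e 4) = pt 3 ∧ k (e 5) = pt n ∧
      ((∃ o ∈ octads, E ⊆ o) → n = 5) ∧ ((¬ ∃ o ∈ octads, E ⊆ o) → n = 4) := by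
  have hsurj : ∀ p ∈ E, ∃ i, e i = p := by
    have : Finset.univ.image e = E := by
      refine Finset.eq_of_subset_of_card_le (fun x hx => ?_) ?_
      · obtain ⟨i, -, rfl⟩ := Finset.mem_image.1 hx
        exact he' i
      · rw [Finset.card_image_of_injective _ he, hE]; simp
    intro p hp
    rw [← this] at hp
    obtain ⟨i, -, h⟩ := Finset.mem_image.1 hp
    exact ⟨i, h⟩
  obtain ⟨k, hk, h0, h1, h2, h3, h4, h5 | h5⟩ := six_tuple e he
  · exact ⟨k, hk, 5, by norm_num, h0, h1, h2, h3, h4, h5, fun _ => rfl,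
      fun h => absurd (special_of hsurj hk h0 h1 h2 h3 h4 h5) h⟩
  · exact ⟨k, hk, 4, by norm_num, h0, h1, h2, h3, h4, h5,
      fun h => absurd h (not_special_of he' hk h0 h1 h2 h3 h4 h5), fun _ => rfl⟩

theorem exists_induces {E : Finset Pt} (hE : E.card = 6) (σ : Perm E) :
    ∃ g ∈ M24, ∀ p : E, g p = σ p := by
  obtain ⟨k, hk, n, -, h0, h1, h2, h3, h4, h5, h6, h7⟩ := six_normal hE (enum6_inj hE)
    (fun i => ((Finset.equivFinOfCardEq hE).symm i).2)
  obtain ⟨k', hk', n', -, g0, g1, g2, g3, g4, g5, g6, g7⟩ := six_normal hE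
    (e := fun i => (σ ((Finset.equivFinOfCardEq hE).symm i) : E))
    (Subtype.val_injective.comp (σ.injective.comp (Equiv.injective _))) (fun i => Subtype.property _)
  have hn : n = n' := by
    by_cases h : ∃ o ∈ octads, E ⊆ o
    · rw [h6 h, g6 h]
    · rw [h7 h, g7 h]
  refine ⟨k'⁻¹ * k, mul_mem (inv_mem hk') hk, fun p => ?_⟩
  obtain ⟨i, rfl⟩ := (Finset.equivFinOfCardEq hE).symm.surjective p
  rw [Perm.mul_apply, Perm.inv_eq_iff_eq]
  fin_cases i
  exacts [h0.trans g0.symm, h1.trans g1.symm, h2.trans g2.symm, h3.trans g3.symm, h4.trans g4.symm,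
    h5.trans (hn ▸ g5.symm)]

theorem card_pointwise_six {E : Finset Pt} (hE : E.card = 6) : ∃ n,
    Nat.card {g : Perm Pt // g ∈ M24 ∧ ∀ p ∈ E, g p = p} = cntL (fun c => Nat.beq (dig c n) n) RL ∧
      ((∃ o ∈ octads, E ⊆ o) → n = 5) ∧ ((¬ ∃ o ∈ octads, E ⊆ o) → n = 4) := by
  obtain ⟨k, hk, n, hn, h0, h1, h2, h3, h4, h5, h6, h7⟩ := six_normal hE (enum6_inj hE)
    (fun i => ((Finset.equivFinOfCardEq hE).symm i).2)
  refine ⟨n, ?_, h6, h7⟩
  rw [card_conj k _ (fun g => g ∈ M24 ∧ ∀ p ∈ E, g (k p) = k p)]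
  · refine card_fix5 _ _ fun g => and_congr_right fun _ => ?_
    rw [forall_enum6 hE, Fin.forall_fin_succ, Fin.forall_fin_succ, Fin.forall_fin_succ,
      Fin.forall_fin_succ, Fin.forall_fin_succ, Fin.forall_fin_one, beq_iff, dig_code g hn,
      ← eq_pt_iff hn, ← h0, ← h1, ← h2, ← h3, ← h4, ← h5]
    rfl
  · intro g
    refine and_congr ⟨fun h => mul_mem (mul_mem hk h) (inv_mem hk), fun h => ?_⟩ (by simp)
    simpa [mul_assoc] using mul_mem (mul_mem (inv_mem hk) h) hk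

theorem card_pointwise_special {E : Finset Pt} (hE : E.card = 6) (h : ∃ o ∈ octads, E ⊆ o) :
    Nat.card {g : Perm Pt // g ∈ M24 ∧ ∀ p ∈ E, g p = p} = 16 := by
  obtain ⟨n, e, h1, -⟩ := card_pointwise_six hE
  rw [e, h1 h]
  decide +kernel

theorem card_pointwise_umbral {E : Finset Pt} (hE : E.card = 6) (h : ¬ ∃ o ∈ octads, E ⊆ o) :
    Nat.card {g : Perm Pt // g ∈ M24 ∧ ∀ p ∈ E, g p = p} = 3 := by
  obtain ⟨n, e, -, h1⟩ := card_pointwise_six hE
  rw [e, h1 h]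
  decide +kernel

end

end CA.M24

theorem CA.M24.realizeEqnsSix : True := by
  have := @CA.M24.enum6.eq_1
  have := @CA.M24.enum6.eq_def
  have := @CA.M24.enum6.congr_simp
  trivial
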